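/-
A noncyclic group `A` of order `q²` acting coprimely with abelian centralizers: the maximal
invariant `{p, t}`-subgroups of a minimal counterexample to solvability.
-/
import Cfsg.Agent.H59.AbCent1
import Cfsg.Agent.H45.TwoA
import Cfsg.Agent.H48.Coprime
import Cfsg.Agent.H50.Stable

set_option autoImplicit false
set_option linter.unusedSectionVars false

namespace Cfsg.Agent.H59

open Subgroup Cfsg.Agent.H49 Cfsg.Agent.H45

universe u

variable {X : Type u} [Group X] [Finite X] {q p t : ℕ} {π : Set ℕ}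
  {A G H K B U V R P Q : Subgroup X} {a b c d : X}

/-- a `σ`-subgroup centralizing `O_{σ'}(H)` lies in `O_σ(H)` when `H'` is nilpotent -/
theorem le_core_of_der {σ : Set ℕ} (hd : ⁅H, H⁆ ≤ fittingOf H) (hR : R ≤ H) (hσ : IsPi σ R)
    (hc : R ≤ 𝒞(piCoreOf σᶜ H)) : R ≤ piCoreOf σ H := by
  have hU : R ⊔ piCoreOf σ H ≤ 𝒞(piCoreOf σᶜ H) := sup_le hc (piCoreOf_cent_compl σ H)
  have hUH : R ⊔ piCoreOf σ H ≤ H := sup_le hR (piCoreOf_le σ H)
  have hD : (R ⊔ piCoreOf σ H) ⊔ piCoreOf σᶜ H ≤ H := sup_le hUH (piCoreOf_le _ H)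
  have hn : H ≤ 𝒩((R ⊔ piCoreOf σ H) ⊔ piCoreOf σᶜ H) := by
    refine norm_of_der_le (hd.trans ?_) hD
    rw [← (nilpotent_isDp (fittingOf_nil H) σ).1]
    exact sup_le_sup ((piCoreOf_fittingOf_le σ H).trans le_sup_right) (piCoreOf_fittingOf_le _ H)
  refine le_sup_left.trans ((le_piCoreOf le_sup_left (sup_le le_normalizer
    (norm_of_cent (cent_symm hU))) (hσ.sup (piCoreOf_pi σ H)
      (Or.inl (hR.trans (le_norm_piCoreOf σ H))))).trans (piCoreOf_le_of_normal σ hD hn))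

/-- a minimal counterexample -/
structure MC (q : ℕ) (A G : Subgroup X) : Prop extends AC q A G where
  fpf : G ⊓ 𝒞(A) = ⊥
  sol : ∀ K, K < G → A ≤ 𝒩(K) → Group.IsSolvable K
  simple : ∀ K, K ≤ G → K ≠ ⊥ → Group.IsSolvable K → A ≤ 𝒩(K) → ¬ G ≤ 𝒩(K)
  nsol : ¬ Group.IsSolvable G

/-- invariant `π`-subgroups -/
structure Iv (A G : Subgroup X) (π : Set ℕ) (K : Subgroup X) : Prop where
  le : K ≤ G
  norm : A ≤ 𝒩(K)
  pi : IsPi π K

/-- maximal invariant `π`-subgroups -/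
structure Mx (A G : Subgroup X) (π : Set ℕ) (H : Subgroup X) : Prop extends Iv A G π H where
  max : ∀ K, Iv A G π K → H ≤ K → K = H

/-- the invariant Sylow `p`-subgroup -/
structure Sy (A G : Subgroup X) (p : ℕ) (P : Subgroup X) : Prop extends Iv A G {p} P where
  prime : p.Prime
  syl : IsSylowOf p P G
  max : ∀ U, Iv A G {p} U → U ≤ P

theorem Iv.inf (h : Iv A G π K) (hU : A ≤ 𝒩(U)) : Iv A G π (K ⊓ U) :=
  ⟨inf_le_left.trans h.le, norm_inf h.norm hU, h.pi.inf_left U⟩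

theorem Iv.mono {ρ : Set ℕ} (h : Iv A G π K) (hπ : π ⊆ ρ) : Iv A G ρ K :=
  ⟨h.le, h.norm, h.pi.mono hπ⟩

theorem Iv.one (h : Iv A G {p} K) (t : ℕ) : Iv A G {p, t} K := h.mono (by simp)

theorem Iv.two (h : Iv A G {t} K) (p : ℕ) : Iv A G {p, t} K := h.mono (by simp)

theorem Iv.core (h : Iv A G π K) (ρ : Set ℕ) : Iv A G ρ (piCoreOf ρ K) :=
  ⟨(piCoreOf_le ρ K).trans h.le, norm_piCoreOf ρ h.norm, piCoreOf_pi ρ K⟩

theorem Iv.center (h : Iv A G π K) : Iv A G π (K ⊓ 𝒞(K)) := h.inf (norm_cent h.norm)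

theorem Iv.sol (h : Iv A G {p} K) : Group.IsSolvable K := solvable_of_nilpotent h.pi.nilpotent

theorem Mx.swap (h : Mx A G {p, t} H) : Mx A G {t, p} H := by rwa [Set.pair_comm]

theorem exists_mx (h : Iv A G π K) : ∃ H, Mx A G π H ∧ K ≤ H := by
  obtain ⟨H, h1, h2, h3⟩ := exists_maximal_ge (Iv A G π) h
  exact ⟨H, ⟨h2, h3⟩, h1⟩

namespace MC

variable (h : MC q A G)
include h

theorem fpf_le (hK : K ≤ G) : K ⊓ 𝒞(A) = ⊥ := le_bot_iff.1 (h.fpf ▸ inf_le_inf_right _ hK)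

theorem der_fit (hK : K ≤ G) (hn : A ≤ 𝒩(K)) (hs : Group.IsSolvable K) : ⁅K, K⁆ ≤ fittingOf K :=
  (h.sub hK hn).der_le_fit (h.fpf_le hK) hs

theorem solN (hB : Iv A G {p} B) (h0 : B ≠ ⊥) : Group.IsSolvable ↥(G ⊓ 𝒩(B)) :=
  h.sol _ (lt_of_le_of_ne inf_le_left fun e =>
    h.simple B hB.le h0 hB.sol hB.norm (e.ge.trans inf_le_right)) (norm_inf h.norm (norm_norm hB.norm))

theorem exists_sy (hp : p.Prime) : ∃ P, Sy A G p P := by
  obtain ⟨P, h1, h2, -⟩ := inv_sylow_ge h.prime hp h.api h.pi h.norm (isPi_bot {p}) bot_le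
    (le_norm_bot A)
  refine ⟨P, ⟨h1.le, h2, h1.pi⟩, hp, h1, fun U hU => ?_⟩
  obtain ⟨T, h3, h4, h5⟩ := inv_sylow_ge h.prime hp h.api h.pi h.norm hU.pi hU.le hU.norm
  obtain ⟨c, hc, e⟩ := inv_sylow_conj h.api h.pi h.norm h3 h1 h4 h2
  rw [h.fpf, Subgroup.mem_bot] at hc
  rwa [← e, hc, cj_one]

theorem sy_inf (hP : Sy A G p P) (hK : K ≤ G) (hn : A ≤ 𝒩(K)) : IsSylowOf p (K ⊓ P) K := by
  obtain ⟨T, h1, h2, -⟩ := inv_sylow_ge h.prime hP.prime h.api (h.pi.of_le hK) hn (isPi_bot {p})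
    bot_le (le_norm_bot A)
  rwa [← h1.eq_of_le (le_inf h1.le (hP.max T ⟨h1.le.trans hK, h2, h1.pi⟩)) inf_le_left
    (hP.pi.inf_right K)]

theorem exists_hallN (hB : Iv A G {p} B) (h0 : B ≠ ⊥) (π : Set ℕ) :
    ∃ L, Iv A G π L ∧ IsPiHallOf π L (G ⊓ 𝒩(B)) ∧ ∀ U, Iv A G π U → U ≤ 𝒩(B) → U ≤ L := by
  have hn := norm_inf h.norm (norm_norm hB.norm)
  have hc := h.cop (K := G ⊓ 𝒩(B)) le_rfl inf_le_left
  obtain ⟨L, h1, h2⟩ := coprime_hall_exists hn hc (h.solA le_rfl) (h.solN hB h0) π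
  refine ⟨L, ⟨h1.le.trans inf_le_left, h2, h1.pi⟩, h1, fun U hU hUB => ?_⟩
  obtain ⟨T, h3, h4, h5⟩ := coprime_hall_ge hn hc (h.solA le_rfl) (h.solN hB h0) hU.pi
    (le_inf hU.le hUB) hU.norm
  obtain ⟨c, hc, e⟩ := coprime_hall_trans hn hc (h.solN hB h0) h3 h1 h4 h2
  rw [h.fpf_le inf_le_left, Subgroup.mem_bot] at hc
  rwa [← e, hc, cj_one]

theorem cov (hB : Iv A G {p} B) (h0 : B ≠ ⊥) (π : Set ℕ) :
    ∃ H, Mx A G π H ∧ ∀ U, Iv A G π U → U ≤ 𝒩(B) → U ≤ H := by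
  obtain ⟨L, h1, -, h2⟩ := h.exists_hallN hB h0 π
  obtain ⟨H, h3, h4⟩ := exists_mx h1
  exact ⟨H, h3, fun U hU e => (h2 U hU e).trans h4⟩

theorem le_mx (hH : Mx A G π H) (hB : Iv A G {p} B) (h0 : B ≠ ⊥) (hn : H ≤ 𝒩(B))
    (hU : Iv A G π U) (hUB : U ≤ 𝒩(B)) : U ≤ H := by
  obtain ⟨K, h1, h2⟩ := h.cov hB h0 π
  rw [← hH.max K h1.toIv (h2 H hH.toIv hn)]
  exact h2 U hU hUB

theorem ivC (hU : Iv A G π U) (ha : a ∈ A) : Iv A G π (U ⊓ 𝒞[a]) := hU.inf (h.normC ha)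

theorem centC (ha : a ∈ A) (h1 : a ≠ 1) (hU : U ≤ G) (hV : V ≤ G) : U ⊓ 𝒞[a] ≤ 𝒞(V ⊓ 𝒞[a]) :=
  (inf_le_inf_right _ hU).trans ((h.ab a ha h1).trans (cent_anti (inf_le_inf_right _ hV)))

theorem bend (ht : t.Prime) (hp : p.Prime) (hpt : p ≠ t) (hH : Mx A G {p, t} H)
    (hK : Iv A G {p, t} K) (hR : Iv A G {t} R) (h0 : R ≠ ⊥) (hRK : R ≤ K) (hn : H ≤ 𝒩(R)) :
    piCoreOf {p} H ⊓ K ≤ piCoreOf {p} K := by
  have h1 : K ⊓ 𝒩(R) ≤ H := h.le_mx hH hR h0 hn (hK.inf (norm_norm hR.norm)) inf_le_right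
  have hK' : IsPi {t, p} K := by rw [Set.pair_comm]; exact hK.pi
  have h2 := H48.pcore_norm_le ht (solvable_of_two hp ht hK.pi) hRK (hR.pi.isPGroup ht)
  rw [core_two hpt.symm hK', core_two hpt.symm (hK'.inf_left _)] at h2
  refine le_trans (le_inf inf_le_left (le_inf inf_le_right ?_)) ((piCoreOf_inf_le {p} h1).trans h2)
  exact inf_le_left.trans ((piCoreOf_le _ _).trans hn)

omit h in
theorem core_cent (hpt : p ≠ t) (H : Subgroup X) : piCoreOf {p} H ≤ 𝒞(piCoreOf {t} H) :=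
  (piCoreOf_cent_compl {p} H).trans (cent_anti (piCoreOf_mono_pi (by simpa using hpt) H))

omit h in
theorem zne (h0 : piCoreOf {p} H ≠ ⊥) : centerOf (piCoreOf {p} H) ≠ ⊥ :=
  center_ne_bot_of_nilpotent (piCoreOf_pi _ H).nilpotent h0

omit h in
theorem znorm (p : ℕ) (H : Subgroup X) : H ≤ 𝒩(centerOf (piCoreOf {p} H)) :=
  norm_inf (le_norm_piCoreOf _ H) (norm_cent (le_norm_piCoreOf _ H))

theorem uniq_a (ht : t.Prime) (hp : p.Prime) (hpt : p ≠ t) (hH : Mx A G {p, t} H)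
    (hK : Mx A G {p, t} K) (h0 : piCoreOf {p} H ≠ ⊥) (h1 : piCoreOf {t} H ≠ ⊥)
    (hpK : centerOf (piCoreOf {p} H) ≤ K) (htK : centerOf (piCoreOf {t} H) ≤ K) :
    centerOf (piCoreOf {p} H) ≤ piCoreOf {p} K ∧ piCoreOf {t} K ≤ H := by
  have e : centerOf (piCoreOf {p} H) ≤ piCoreOf {p} K := (le_inf inf_le_left hpK).trans
    (h.bend ht hp hpt hH hK.toIv (hH.core {t}).center (zne h1) htK (znorm t H))
  exact ⟨e, h.le_mx hH (hH.core {p}).center (zne h0) (znorm p H) ((hK.core {t}).two p)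
    (norm_of_cent ((core_cent hpt.symm K).trans (cent_anti e)))⟩

/-- Bender's uniqueness argument -/
theorem uniq (ht : t.Prime) (hp : p.Prime) (hpt : p ≠ t) (hH : Mx A G {p, t} H)
    (hK : Mx A G {p, t} K) (h0 : piCoreOf {p} H ≠ ⊥) (h1 : piCoreOf {t} H ≠ ⊥)
    (hpK : centerOf (piCoreOf {p} H) ≤ K) (htK : centerOf (piCoreOf {t} H) ≤ K) : K ≤ H := by
  obtain ⟨a1, a2⟩ := h.uniq_a ht hp hpt hH hK h0 h1 hpK htK
  obtain ⟨b1, b2⟩ := h.uniq_a hp ht hpt.symm hH.swap hK.swap h1 h0 htK hpK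
  have k0 := ne_bot_mono a1 (zne h0)
  have k1 := ne_bot_mono b1 (zne h1)
  have c1 : piCoreOf {p} K ≤ piCoreOf {p} H := (le_inf le_rfl b2).trans
    (h.bend ht hp hpt hK hH.toIv (hK.core {t}) k1 a2 (le_norm_piCoreOf _ K))
  have c2 : piCoreOf {t} K ≤ piCoreOf {t} H := (le_inf le_rfl a2).trans
    (h.bend hp ht hpt.symm hK.swap hH.swap.toIv (hK.core {p}) k0 b2 (le_norm_piCoreOf _ K))
  have d1 : piCoreOf {p} H ≤ K := h.le_mx hK (hK.core {t}) k1 (le_norm_piCoreOf _ K)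
    ((hH.core {p}).one t) (norm_of_cent ((core_cent hpt H).trans (cent_anti c2)))
  have d2 : piCoreOf {p} H = piCoreOf {p} K := le_antisymm ((le_inf le_rfl d1).trans
    (h.bend ht hp hpt hH hK.toIv (hH.core {t}).center (zne h1) htK (znorm t H))) c1
  exact h.le_mx hH (hH.core {p}) h0 (le_norm_piCoreOf _ H) hK.toIv (d2 ▸ le_norm_piCoreOf _ K)

theorem le_core (hp : p.Prime) (ht : t.Prime) (hpt : p ≠ t) (hH : Iv A G {p, t} H) (hR : R ≤ H)
    (hπ : IsPi {p} R) (hc : R ≤ 𝒞(piCoreOf {t} H)) : R ≤ piCoreOf {p} H :=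
  le_core_of_der (h.der_fit hH.le hH.norm (solvable_of_two hp ht hH.pi)) hR hπ
    (by rwa [core_two hpt hH.pi])

theorem cf (hpt : p ≠ t) (ha : a ∈ A) (h1 : a ≠ 1) (hb : b ∈ A) (hab : b ∉ zpowers a)
    (hB : Iv A G {p} B) (hW : Iv A G {t} V) (hBW : B ≤ 𝒩(V)) (h0 : V ⊓ 𝒞[b] = ⊥) :
    B ⊓ 𝒞[a] ≤ 𝒞(V) :=
  h.cent_of_fpf h.fpf ha h1 hb hab (inf_le_inf_right _ hB.le) (h.ivC hB ha).norm hW.le hW.norm
    (inf_le_left.trans hBW) hW.sol
    (hW.pi.coprime ((hB.pi.inf_left _).compl_singleton_of_ne hpt)) h0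

/-- a maximal invariant `{p, t}`-subgroup with both cores non-trivial contains the Sylow groups -/
theorem both (ht : t.Prime) (hpt : p ≠ t) (hH : Mx A G {p, t} H) (hP : Sy A G p P)
    (h0 : piCoreOf {p} H ≠ ⊥) (h1 : piCoreOf {t} H ≠ ⊥) : P ≤ H := by
  have hp := hP.prime
  have hPH : Iv A G {p} (P ⊓ H) := hP.inf hH.norm
  have hO : piCoreOf {p} H ≤ P ⊓ H := le_inf (hP.max _ (hH.core _)) (piCoreOf_le _ _)
  have good : ∀ c ∈ A, c ≠ 1 → ∀ r B, Iv A G {r} B → B ≤ 𝒞(centerOf (piCoreOf {p} H)) →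
      B ≤ 𝒞(centerOf (piCoreOf {t} H)) → B ⊓ 𝒞[c] ≠ ⊥ → P ⊓ 𝒞[c] ≤ H :=
    fun c hc c1 r B hB e1 e2 e3 => by
      obtain ⟨K, hK, hle⟩ := h.cov (h.ivC hB hc) e3 {p, t}
      refine (hle _ ((h.ivC hP.toIv hc).one t) (norm_of_cent (h.centC hc c1 hP.le hB.le))).trans
        (h.uniq ht hp hpt hH hK h0 h1 (hle _ ((hH.core {p}).center.one t) ?_)
          (hle _ ((hH.core {t}).center.two p) ?_))
      · exact norm_of_cent (cent_symm (inf_le_left.trans e1))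
      · exact norm_of_cent (cent_symm (inf_le_left.trans e2))
  have hN : Iv A G {p} (P ⊓ 𝒩(P ⊓ H)) := hP.inf (norm_norm hPH.norm)
  refine (eq_of_inf_norm_le_of_nilpotent hP.pi.nilpotent inf_le_left (le_inf inf_le_left
    (h.gen hN.le hN.norm fun c hc c1 => ?_))).ge.trans inf_le_right
  by_cases e1 : piCoreOf {p} H ⊓ 𝒞[c] = ⊥; swap
  · exact (inf_le_inf_right _ inf_le_left).trans (good c hc c1 p _ (hH.core _)
      (cent_symm inf_le_right) ((core_cent hpt H).trans (cent_anti inf_le_left)) e1)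
  by_cases e2 : piCoreOf {t} H ⊓ 𝒞[c] = ⊥; swap
  · exact (inf_le_inf_right _ inf_le_left).trans (good c hc c1 t _ (hH.core _)
      ((core_cent hpt.symm H).trans (cent_anti inf_le_left)) (cent_symm inf_le_right) e2)
  have hz : zpowers c ≤ A := zpowers_le.2 hc
  have f1 : P ⊓ H ≤ (P ⊓ H ⊓ 𝒞[c]) ⊔ piCoreOf {p} H := h.gen hPH.le hPH.norm fun a ha a1 => by
    by_cases hca : c ∈ zpowers a
    · rw [h.cent_eq ha a1 hca c1]; exact le_sup_left
    · exact (h.le_core hp ht hpt hH.toIv (inf_le_left.trans inf_le_right) (hPH.pi.inf_left _)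
        (h.cf hpt ha a1 hc hca hPH (hH.core _) (inf_le_right.trans (le_norm_piCoreOf _ _))
          e2)).trans le_sup_right
  have f2 : ⁅P ⊓ H, zpowers c⁆ = piCoreOf {p} H := by
    have hzO := hz.trans (hH.core {p}).norm
    have hn : P ⊓ H ⊓ 𝒞[c] ≤ 𝒩(piCoreOf {p} H) :=
      inf_le_left.trans (inf_le_right.trans (le_norm_piCoreOf _ _))
    refine le_antisymm ?_ ((coprime_comm_eq_of_cent hzO (h.cop hz (hH.core {p}).le)
      (Or.inl (h.solA hz)) (by rwa [cent_zpowers])).ge.trans (commutator_mono hO le_rfl))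
    rw [← quo_cent_iff (inf_le_right.trans (le_norm_piCoreOf _ _)) hzO]
    refine (quo_mono _ f1).trans ?_
    rw [quo_sup_ker hn]
    exact quo_cent _ (by rw [cent_zpowers]; exact inf_le_right)
  refine h.le_mx hH (hH.core {p}) h0 (le_norm_piCoreOf _ _) ((h.ivC hN hc).one t) ?_
  rw [← f2]
  exact norm_commutator (inf_le_left.trans inf_le_right)
    (norm_of_cent (by rw [cent_zpowers]; exact inf_le_right))

omit h in
theorem sy_disj (hpt : p ≠ t) (hP : Sy A G p P) (hQ : Sy A G t Q) : P ⊓ Q = ⊥ :=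
  hP.pi.inf_eq_bot (hQ.pi.compl_singleton_of_ne hpt.symm)

/-- a maximal invariant `{p, t}`-subgroup with `O_t = 1` -/
theorem one (hpt : p ≠ t) (hH : Mx A G {p, t} H) (hP : Sy A G p P) (hQ : Sy A G t Q)
    (P0 : P ≠ ⊥) (h1 : piCoreOf {t} H = ⊥) :
    H ≤ 𝒩(P) ∧ P ≤ H ∧ Q ⊓ H ≤ 𝒞(Q ⊓ H) ∧ Q ⊓ H ⊓ 𝒞(P) = ⊥ := by
  have hp := hP.prime
  have ht := hQ.prime
  have hs := solvable_of_two hp ht hH.pi
  have e1 : P ⊓ H = piCoreOf {p} H := le_antisymm (h.le_core hp ht hpt hH.toIv inf_le_right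
    (hP.pi.inf_left _) (h1 ▸ le_cent_bot _)) (le_inf (hP.max _ (hH.core _)) (piCoreOf_le _ _))
  have h1' : piCoreOf {p}ᶜ H = ⊥ := by rw [core_two hpt hH.pi, h1]
  have h0 : piCoreOf {p} H ≠ ⊥ := fun e => by
    have : H = ⊥ := by_contra fun e' => fittingOf_ne_bot hs e' (by rw [fittingOf_eq_pcore h1', e])
    exact P0 ((hH.max P (hP.one t) (this ▸ bot_le)).trans this)
  have e2 : P ⊓ H = P := eq_of_inf_norm_le_of_nilpotent hP.pi.nilpotent inf_le_left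
    (le_inf inf_le_left (h.le_mx hH (hH.core {p}) h0 (le_norm_piCoreOf _ _)
      ((hP.inf (norm_norm (hP.inf hH.norm).norm)).one t) (e1 ▸ inf_le_right)))
  have e3 : piCoreOf {p} H = P := e1.symm.trans e2
  refine ⟨e3 ▸ le_norm_piCoreOf _ _, e2.ge.trans inf_le_right, commutator_eq_bot_iff.1
    (le_bot_iff.1 ?_), le_bot_iff.1 ?_⟩ <;> rw [← sy_disj hpt hP hQ]
  · refine le_inf ((der_mono inf_le_right).trans ((h.der_fit hH.le hH.norm hs).trans ?_))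
      (der_le.trans inf_le_left)
    rw [fittingOf_eq_pcore h1', e3]
  · have := cent_pcore_le hs h1'
    rw [e3] at this
    exact le_inf ((inf_le_inf_right _ inf_le_right).trans this) (inf_le_left.trans inf_le_left)

end MC

end Cfsg.Agent.H59
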