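import Cfsg.Agent.H75.Invol

/-! A counting lemma for involutions fixing exactly one point. -/

set_option autoImplicit false

namespace Cfsg.Agent.H59.FixInv

open Subgroup

variable {G : Type*} [Group G]

theorem eq_pow_half [Finite G] {g u : G} (hu : u ∈ zpowers g) (h2 : orderOf u = 2) :
    u = g ^ (orderOf g / 2) := by
  obtain ⟨i, rfl⟩ := mem_powers_iff_mem_zpowers.2 hu
  have ho : 0 < orderOf g := orderOf_pos g
  simp only at h2 ⊢
  rw [← pow_mod_orderOf] at h2 ⊢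
  have hlt := Nat.mod_lt i ho
  generalize i % orderOf g = j at *
  have h1 : orderOf g ∣ j * 2 := by
    rw [orderOf_dvd_iff_pow_eq_one, pow_mul, ← h2, pow_orderOf_eq_one]
  have h0 : j ≠ 0 := by rintro rfl; simp at h2
  obtain ⟨c, hc⟩ := h1
  have : c = 1 := by
    rcases c with _ | _ | c
    · omega
    · rfl
    · nlinarith
  subst this
  congr 1; omega

theorem mul_pow_mem {K : Subgroup G} {g k : G} (hg : ∀ k ∈ K, g * k * g⁻¹ ∈ K) (hk : k ∈ K)
    (j : ℕ) : (g * k) ^ j * (g ^ j)⁻¹ ∈ K := by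
  induction j with
  | zero => simp
  | succ j ih =>
    have : (g * k) ^ (j + 1) * (g ^ (j + 1))⁻¹ = g * (k * ((g * k) ^ j * (g ^ j)⁻¹)) * g⁻¹ := by
      rw [pow_succ', pow_succ']; group
    rw [this]
    exact hg _ (K.mul_mem hk ih)

theorem mem_zpowers_mul [Finite G] {K : Subgroup G} (hK : Odd (Nat.card K)) {g k z : G}
    (hz : z * z = 1) (hKz : ∀ k ∈ K, k * z = z * k) (hg : ∀ k ∈ K, g * k * g⁻¹ ∈ K) (hk : k ∈ K)
    (hm : z ∈ zpowers g) : z ∈ zpowers (g * k) := by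
  obtain ⟨j, rfl⟩ := mem_powers_iff_mem_zpowers.2 hm
  simp only at hz hKz ⊢
  have h1 := mul_pow_mem hg hk j
  set k' := (g * k) ^ j * (g ^ j)⁻¹ with hk'
  have e : (g * k) ^ j = k' * g ^ j := by rw [hk']; group
  have hc : Commute k' (g ^ j) := hKz _ h1
  obtain ⟨m, hm'⟩ := hK
  have h2 : k' ^ Nat.card K = 1 := by
    have := pow_card_eq_one' (G := K) (x := ⟨k', h1⟩)
    exact congrArg Subtype.val this
  have h3 : ((g * k) ^ j) ^ Nat.card K = g ^ j := by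
    rw [e, hc.mul_pow, h2, one_mul, hm', pow_succ, pow_mul, pow_two, hz, one_pow, one_mul]
  rw [← h3]
  exact pow_mem (pow_mem (mem_zpowers _) _) _

variable {Ω : Type*} [MulAction G Ω]

theorem count [Finite G] (htr : ∀ b c : Ω, ∃ g : G, g • b = c)
    (A2 : ∀ (B : Set G) (ω : Ω) (z : G), (∀ b ∈ B, b • ω = ω) → z * z = 1 →
      (∀ b ∈ B, z * b = b * z) → ∃ ω' : Ω, z • ω' = ω' ∧ ∀ b ∈ B, b • ω' = ω')
    {x w : G} {a : Ω} (hx : x * x = 1)
    (A3 : ∀ z : G, orderOf z = 2 → z * x = x * z → ∃ K : Subgroup G, Odd (Nat.card K) ∧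
      (∀ k ∈ K, k * z = z * k) ∧ (∀ c : G, c * z = z * c → ∀ k ∈ K, c * k * c⁻¹ ∈ K) ∧
      ∀ ω : Ω, z • ω = ω → ∃ k ∈ K, k • a = ω)
    (hw : orderOf w = 2) (hc : w * x = x * w) (hwa : ∀ ω : Ω, w • ω = ω ↔ ω = a)
    (hd : ¬ IsConj x (x * w)) (ω : Ω) : (x * w) • ω = ω := by
  classical
  haveI := Fintype.ofFinite G
  have hw2 : w * w = 1 := H75.mul_self_of_orderOf_two hw
  have hd2 : x * w * (x * w) = 1 := by
    rw [mul_assoc, ← mul_assoc w, hc, mul_assoc, hw2, mul_one, hx]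
  let ζ : G → G := fun y => (x * y) ^ (orderOf (x * y) / 2)
  have hζ : ∀ y, IsConj (x * w) y → orderOf (ζ y) = 2 ∧ ζ y ∈ zpowers (x * y) ∧
      ζ y * x = x * ζ y ∧ ζ y * y = y * ζ y := by
    intro y hy
    have hy2 : y * y = 1 := by
      obtain ⟨c, rfl⟩ := isConj_iff.1 hy
      rw [show c * (x * w) * c⁻¹ * (c * (x * w) * c⁻¹) = c * (x * w * (x * w)) * c⁻¹ by group, hd2]
      simp
    obtain ⟨u, h1, h2, h3, h4⟩ := H75.exists_invol_commute_of_not_isConj hx hy2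
      (fun h => hd (h.trans hy.symm))
    have : u = ζ y := eq_pow_half h2 h1
    subst this
    exact ⟨h1, h2, h3, h4⟩
  let S : Ω → Finset G := fun c => Finset.univ.filter fun y => IsConj (x * w) y ∧ y • c = c
  have hS : ∀ c y, y ∈ S c ↔ IsConj (x * w) y ∧ y • c = c := fun c y => by simp [S]
  have hconj : ∀ (g y : G) (c : Ω), y ∈ S (g • c) → g⁻¹ * y * g ∈ S c := by
    intro g y c hy
    rw [hS] at hy ⊢
    refine ⟨hy.1.trans (isConj_iff.2 ⟨g⁻¹, by simp⟩), ?_⟩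
    rw [mul_smul, mul_smul, hy.2, inv_smul_smul]
  have hinj : ∀ g : G, Function.Injective fun y : G => g⁻¹ * y * g := fun g y y' h => by
    simpa using h
  have hle : (S a).card ≤ (S ω).card := by
    obtain ⟨g, hg⟩ := htr ω a
    exact Finset.card_le_card_of_injOn (fun y => g⁻¹ * y * g)
      (fun y hy => hconj g y ω (hg ▸ hy)) (hinj g).injOn
  have hfib : ∀ z, ((S ω).filter fun y => ζ y = z).card ≤ ((S a).filter fun y => ζ y = z).card := by
    intro z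
    rcases ((S ω).filter fun y => ζ y = z).eq_empty_or_nonempty with h | ⟨y₀, hy₀⟩
    · rw [h]; simp
    rw [Finset.mem_filter, hS] at hy₀
    obtain ⟨o1, -, o3, -⟩ := hζ y₀ hy₀.1.1
    rw [hy₀.2] at o1 o3
    have hz2 := H75.mul_self_of_orderOf_two o1
    obtain ⟨ω', e1, e2⟩ := A2 {y | y ∈ S ω ∧ ζ y = z} ω z (fun b hb => ((hS _ _).1 hb.1).2) hz2
      (fun b hb => hb.2 ▸ (hζ b ((hS _ _).1 hb.1).1).2.2.2)
    obtain ⟨K, k1, k2, k3, k4⟩ := A3 z o1 o3
    obtain ⟨k, hk, hka⟩ := k4 ω' e1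
    refine Finset.card_le_card_of_injOn (fun y => k⁻¹ * y * k) (fun y hy => ?_) (hinj k).injOn
    rw [Finset.coe_filter] at hy ⊢
    have hy1 := ((hS _ _).1 hy.1).1
    have hyS : k⁻¹ * y * k ∈ S a := hconj k y a ((hS _ _).2 ⟨hy1, hka ▸ e2 y hy⟩)
    refine ⟨hyS, (eq_pow_half ?_ o1).symm⟩
    obtain ⟨-, p2, -, p4⟩ := hζ y hy1
    rw [hy.2] at p2 p4
    have hyi : y⁻¹ * z = z * y⁻¹ := (Commute.inv_left (p4.symm : Commute y z)).eq
    have hk' : y⁻¹ * k⁻¹ * y * k ∈ K := K.mul_mem (by simpa using k3 _ hyi _ (K.inv_mem hk)) hk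
    have := mem_zpowers_mul k1 hz2 k2
      (k3 (x * y) (by rw [mul_assoc, ← p4, ← mul_assoc, ← o3, mul_assoc])) hk' p2
    rwa [show x * y * (y⁻¹ * k⁻¹ * y * k) = x * (k⁻¹ * y * k) by group] at this
  have hsum : ∀ c, (S c).card = ∑ z : G, ((S c).filter fun y => ζ y = z).card := fun c =>
    Finset.card_eq_sum_card_fiberwise (fun _ _ => Finset.mem_univ _)
  have heq := (Finset.sum_eq_sum_iff_of_le (s := Finset.univ) (fun z _ => hfib z)).1
    (le_antisymm (Finset.sum_le_sum fun z _ => hfib z) (by rw [← hsum, ← hsum]; exact hle)) w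
    (Finset.mem_univ _)
  have hfix : ∀ y, w * y = y * w → y • a = a := fun y hy =>
    (hwa _).1 (by rw [← mul_smul, hy, mul_smul, (hwa a).2 rfl])
  have hsub : ((S ω).filter fun y => ζ y = w) ⊆ (S a).filter fun y => ζ y = w := by
    intro y hy
    rw [Finset.mem_filter, hS] at hy ⊢
    exact ⟨⟨hy.1.1, hfix y (hy.2 ▸ (hζ y hy.1.1).2.2.2)⟩, hy.2⟩
  have hE := Finset.eq_of_subset_of_card_le hsub heq.ge
  have hm : x * w ∈ (S a).filter fun y => ζ y = w := by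
    rw [Finset.mem_filter, hS]
    refine ⟨⟨IsConj.refl _, hfix _ (by rw [← mul_assoc, hc, mul_assoc])⟩, (eq_pow_half ?_ hw).symm⟩
    rw [← mul_assoc, hx, one_mul]
    exact mem_zpowers _
  rw [← hE, Finset.mem_filter, hS] at hm
  exact hm.1.2

end Cfsg.Agent.H59.FixInv
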