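import Cfsg.Agent.H59.FixInv1
import Cfsg.Agent.H43.SE
import Cfsg.Agent.H8.OddCore

/-! Coprime automorphisms of prime order: fixed points on cosets. -/

set_option autoImplicit false

namespace Cfsg.Agent.H59.FixInv

open Subgroup

theorem exists_fixed_of_iterate {S : Type*} [Finite S] {r : ℕ} (hr : r.Prime) (f : S → S)
    (hf : ∀ s, f^[r] s = s) (hc : ¬ r ∣ Nat.card S) : ∃ s, f s = s := by
  classical
  haveI := Fintype.ofFinite S
  haveI := Fact.mk hr
  obtain ⟨k, rfl⟩ : ∃ k, r = k + 1 := ⟨r - 1, by have := hr.pos; omega⟩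
  let σ : Equiv.Perm S := ⟨f, f^[k], fun s => hf s, fun s => by
    rw [← Function.iterate_succ_apply' f k s]; exact hf s⟩
  refine Equiv.Perm.exists_fixed_point_of_prime (p := k + 1) (n := 1) (σ := σ)
    (by rwa [← Nat.card_eq_fintype_card]) ?_
  ext s
  rw [pow_one, Equiv.Perm.coe_pow]
  exact hf s

variable {G : Type*} [Group G]

/-- An endomorphism of prime order `r` not dividing the group order. -/
structure Cop (α : G →* G) (r : ℕ) : Prop where
  prime : r.Prime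
  iter : ∀ g, α^[r] g = g
  nd : ¬ r ∣ Nat.card G

/-- The fixed point subgroup. -/
def Fx (α : G →* G) : Subgroup G := α.eqLocus (MonoidHom.id G)

theorem mem_Fx {α : G →* G} {g : G} : g ∈ Fx α ↔ α g = g := Iff.rfl

variable {α : G →* G} {r : ℕ}

theorem Cop.surj (h : Cop α r) : Function.Surjective α := fun g => by
  obtain ⟨k, hk⟩ : ∃ k, r = k + 1 := ⟨r - 1, by have := h.prime.pos; omega⟩
  exact ⟨α^[k] g, by rw [← Function.iterate_succ_apply' α k g, Nat.succ_eq_add_one, ← hk, h.iter]⟩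

/-- Restriction to an invariant subgroup. -/
def res (α : G →* G) {X : Subgroup G} (hX : ∀ x ∈ X, α x ∈ X) : X →* X :=
  (α.comp X.subtype).codRestrict X fun x => hX x x.2

theorem coe_res {X : Subgroup G} (hX : ∀ x ∈ X, α x ∈ X) (x : X) : (res α hX x : G) = α x := rfl

theorem Cop.restrict (h : Cop α r) {X : Subgroup G} (hX : ∀ x ∈ X, α x ∈ X) : Cop (res α hX) r :=
  ⟨h.prime, fun g => Subtype.ext (by
    have : Function.Semiconj (Subtype.val : X → G) (res α hX) α := fun _ => rfl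
    rw [(this.iterate_right r).eq, h.iter]), fun hd => h.nd (hd.trans X.card_subgroup_dvd_card)⟩

theorem Cop.quot (h : Cop α r) {N : Subgroup G} [N.Normal] (hN : N ≤ N.comap α) :
    Cop (QuotientGroup.map N N α hN) r :=
  ⟨h.prime, fun g => by
    obtain ⟨g, rfl⟩ := QuotientGroup.mk_surjective g
    have : Function.Semiconj (QuotientGroup.mk : G → G ⧸ N) α (QuotientGroup.map N N α hN) :=
      fun _ => rfl
    rw [← (this.iterate_right r).eq, h.iter], fun hd => h.nd (hd.trans N.card_quotient_dvd_card)⟩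

variable [Finite G]

theorem Cop.exists_fixed (h : Cop α r) {S : Set G} (hS : ∀ s ∈ S, α s ∈ S)
    (hc : Nat.card S ∣ Nat.card G) : ∃ s ∈ S, α s = s := by
  obtain ⟨s, hs⟩ := exists_fixed_of_iterate h.prime (fun s : S => (⟨α s, hS s s.2⟩ : S))
    (fun s => Subtype.ext (by
      have : Function.Semiconj (Subtype.val : S → G) (fun s : S => (⟨α s, hS s s.2⟩ : S)) α :=
        fun _ => rfl
      rw [(this.iterate_right r).eq, h.iter])) (fun hd => h.nd (hd.trans hc))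
  exact ⟨s, s.2, congrArg Subtype.val hs⟩

theorem Cop.exists_exp (h : Cop α r) : ∃ k, (∀ g, α^[k] g = α g) ∧ ∀ g : G, g ^ k = 1 := by
  have hc : (Nat.card G).Coprime r := ((Nat.Prime.coprime_iff_not_dvd h.prime).2 h.nd).symm
  obtain ⟨m, -, hm⟩ := Nat.exists_mul_mod_eq_one_of_coprime hc h.prime.one_lt
  refine ⟨Nat.card G * m, fun g => ?_, fun g => by rw [pow_mul, pow_card_eq_one', one_pow]⟩
  rw [← Nat.mod_add_div (Nat.card G * m) r, hm, Function.iterate_add_apply,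
    Function.iterate_mul, Function.iterate_fixed (h.iter g)]
  rfl

theorem Cop.fix_of_eq (h : Cop α r) {g u v : G} (hu : α u = u) (hv : α v = v)
    (e : α g = u * g * v) : α g = g := by
  obtain ⟨k, h1, h2⟩ := h.exists_exp
  have : ∀ n, α^[n] g = u ^ n * g * v ^ n := by
    intro n
    induction n with
    | zero => simp
    | succ n ih =>
      rw [Function.iterate_succ_apply', ih, map_mul, map_mul, map_pow, map_pow, hu, hv, e,
        pow_succ, pow_succ']
      group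
  rw [← h1, this, h2, h2, one_mul, mul_one]

/-- An invariant subset which is conjugate into the fixed point subgroup is fixed. -/
theorem Cop.fix_of_conj (h : Cop α r) {P : Set G} (hP : ∀ x ∈ P, α x ∈ P) {g : G}
    (hg : ∀ x ∈ P, g⁻¹ * x * g ∈ Fx α) {x : G} (hx : x ∈ P) : α x = x := by
  obtain ⟨k, h1, h2⟩ := h.exists_exp
  have e : ∀ y ∈ P, α y = (α g * g⁻¹) * y * (α g * g⁻¹)⁻¹ := fun y hy => by
    have := mem_Fx.1 (hg y hy)
    rw [map_mul, map_mul, map_inv] at this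
    calc α y = α g * ((α g)⁻¹ * α y * α g) * (α g)⁻¹ := by group
      _ = _ := by rw [this]; group
  have : ∀ n, α^[n] x ∈ P ∧ α^[n] x = (α g * g⁻¹) ^ n * x * ((α g * g⁻¹) ^ n)⁻¹ := by
    intro n
    induction n with
    | zero => simpa using hx
    | succ n ih =>
      rw [Function.iterate_succ_apply']
      refine ⟨hP _ ih.1, ?_⟩
      rw [e _ ih.1, ih.2, pow_succ']
      generalize α g * g⁻¹ = c
      group
  rw [← h1, (this k).2, h2, one_mul, inv_one, mul_one]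

/-- Control of fusion. -/
theorem Cop.fusion (h : Cop α r) {B : Set G} (hB : ∀ b ∈ B, α b = b) {g : G}
    (hg : ∀ b ∈ B, g⁻¹ * b * g ∈ Fx α) :
    ∃ c : G, (∀ b ∈ B, c * b = b * c) ∧ c⁻¹ * g ∈ Fx α := by
  obtain ⟨s, hs, e⟩ := h.exists_fixed (S := {s | g * s⁻¹ ∈ centralizer B}) (fun s hs b hb => by
    have h1 : s⁻¹ * b * s = g⁻¹ * b * g := by
      calc s⁻¹ * b * s = g⁻¹ * (g * s⁻¹ * b) * s := by group
        _ = _ := by rw [← hs b hb]; group
    have h2 := congrArg α h1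
    rw [mem_Fx.1 (hg b hb), map_mul, map_mul, map_inv, hB b hb] at h2
    calc b * (g * (α s)⁻¹) = g * (g⁻¹ * b * g) * (α s)⁻¹ := by group
      _ = _ := by rw [← h2]; group) (by
    refine Dvd.dvd.trans (dvd_of_eq (Nat.card_congr ?_)) (centralizer B).card_subgroup_dvd_card
    exact ⟨fun s => ⟨g * s.1⁻¹, s.2⟩, fun c => ⟨c.1⁻¹ * g, by simpa using c.2⟩,
      fun s => by simp, fun c => by simp⟩)
  exact ⟨g * s⁻¹, fun b hb => (hs b hb).symm, by simpa using mem_Fx.2 e⟩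

theorem Cop.exists_sylow (h : Cop α r) (p : ℕ) [Fact p.Prime] :
    ∃ P : Sylow p G, ∀ x ∈ P, α x ∈ P := by
  obtain ⟨P₀⟩ : Nonempty (Sylow p G) := inferInstance
  have hm : ∀ (P : Sylow p G) (n : ℕ) (x : G), x ∈ P →
      α^[n] x ∈ (fun Q : Sylow p G => Q.mapSurjective h.surj)^[n] P := by
    intro P n x hx
    induction n with
    | zero => exact hx
    | succ n ih =>
      rw [Function.iterate_succ_apply', Function.iterate_succ_apply']
      exact mem_map_of_mem α ih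
  obtain ⟨P, hP⟩ := exists_fixed_of_iterate h.prime (fun Q : Sylow p G => Q.mapSurjective h.surj)
    (fun Q => (Sylow.ext (Q.is_maximal' (Sylow.isPGroup' _)
      (fun x hx => by have := hm Q r x hx; rw [h.iter] at this; exact this))))
    (fun hd => h.nd ((hd.trans P₀.card_dvd_index).trans (index_dvd_card _)))
  exact ⟨P, fun x hx => by rw [← hP]; exact mem_map_of_mem α hx⟩

/-- If `α` acts trivially modulo an invariant subgroup `K` then `G = K C_G(α)`. -/
theorem Cop.exists_mul (h : Cop α r) {K : Subgroup G} (hK : ∀ k ∈ K, α k ∈ K) {g : G}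
    (hg : α g * g⁻¹ ∈ K) : ∃ k ∈ K, k⁻¹ * g ∈ Fx α := by
  obtain ⟨s, hs, e⟩ := h.exists_fixed (S := {s | g * s⁻¹ ∈ K}) (fun s hs => by
    have := K.mul_mem (K.inv_mem hg) (hK _ hs)
    rw [map_mul, map_inv] at this
    show g * (α s)⁻¹ ∈ K
    simpa [mul_assoc] using this) (by
    refine Dvd.dvd.trans (dvd_of_eq (Nat.card_congr ?_)) K.card_subgroup_dvd_card
    exact ⟨fun s => ⟨g * s.1⁻¹, s.2⟩, fun c => ⟨c.1⁻¹ * g, by simpa using c.2⟩,
      fun s => by simp, fun c => by simp⟩)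
  exact ⟨g * s⁻¹, hs, by simpa using mem_Fx.2 e⟩

theorem Cop.uniq (h : Cop α r) {τ : G} (hC : ∀ c, c * τ = τ * c → α c = c) {g : G}
    (hg : g⁻¹ * τ * g ∈ Fx α) : g ∈ Fx α := by
  obtain ⟨c, h1, h2⟩ := h.fusion (B := {τ}) (fun b hb => by rw [hb]; exact hC _ rfl) (g := g)
    (fun b hb => by rw [hb]; exact hg)
  simpa using (Fx α).mul_mem (mem_Fx.2 (hC c (h1 τ rfl))) h2

theorem Cop.fix_iff (h : Cop α r) {τ : G} (hC : ∀ c, c * τ = τ * c → α c = c) (ω : G ⧸ Fx α) :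
    τ • ω = ω ↔ ω = ((1 : G) : G ⧸ Fx α) := by
  obtain ⟨g, rfl⟩ := QuotientGroup.mk_surjective ω
  rw [H43.smul_mk_eq_iff, QuotientGroup.eq, mul_one, inv_mem_iff]
  exact ⟨h.uniq hC, fun hg => mul_mem (mul_mem (inv_mem hg) (hC τ rfl)) hg⟩

/-- Invariant 2-subgroups are fixed. -/
theorem Cop.fix_two (h : Cop α r) {τ : G} (hτ : orderOf τ = 2)
    (hC : ∀ c, c * τ = τ * c → α c = c) {P : Subgroup G} (h2 : IsPGroup 2 P)
    (hP : ∀ x ∈ P, α x ∈ P) {x : G} (hx : x ∈ P) : α x = x := by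
  have hz : IsPGroup 2 (zpowers τ) := IsPGroup.of_card (n := 1) (by rw [Nat.card_zpowers, hτ]; rfl)
  have h1 := hz.card_modEq_card_fixedPoints (G ⧸ Fx α)
  have h3 : Nat.card (MulAction.fixedPoints (zpowers τ) (G ⧸ Fx α)) = 1 := by
    rw [Nat.card_eq_one_iff_exists]
    refine ⟨⟨((1 : G) : G ⧸ Fx α), fun t => ?_⟩, fun ω => Subtype.ext
      ((h.fix_iff hC _).1 (ω.2 ⟨τ, mem_zpowers τ⟩))⟩
    exact H43.smul_one_eq_iff.2 ((zpowers_le.2 (mem_Fx.2 (hC τ rfl))) t.2)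
  rw [h3] at h1
  obtain ⟨ω, hω⟩ := h2.nonempty_fixed_point_of_prime_not_dvd_card (G ⧸ Fx α) (fun hd => by
    have := (Nat.modEq_zero_iff_dvd.2 hd).symm.trans h1
    simp [Nat.ModEq] at this)
  obtain ⟨g, rfl⟩ := QuotientGroup.mk_surjective ω
  exact h.fix_of_conj (P := P) hP (g := g) (fun y hy => H43.smul_mk_eq_iff.1 (hω ⟨y, hy⟩)) hx

theorem Cop.A2 (h : Cop α r) {τ : G} (hτ : orderOf τ = 2) (hC : ∀ c, c * τ = τ * c → α c = c)
    (B : Set G) (ω : G ⧸ Fx α) (z : G) (hB : ∀ b ∈ B, b • ω = ω) (hz : z * z = 1)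
    (hzB : ∀ b ∈ B, z * b = b * z) : ∃ ω' : G ⧸ Fx α, z • ω' = ω' ∧ ∀ b ∈ B, b • ω' = ω' := by
  obtain ⟨g, rfl⟩ := QuotientGroup.mk_surjective ω
  let X : Subgroup G := centralizer ((fun b => g⁻¹ * b * g) '' B)
  have hX : ∀ x ∈ X, α x ∈ X := by
    rintro x hx _ ⟨b, hb, rfl⟩
    have := congrArg α (hx _ ⟨b, hb, rfl⟩)
    rwa [map_mul, map_mul α x, mem_Fx.1 (H43.smul_mk_eq_iff.1 (hB b hb))] at this
  obtain ⟨P, hP⟩ := (h.restrict hX).exists_sylow 2
  have hzX : g⁻¹ * z * g ∈ X := by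
    rintro _ ⟨b, hb, rfl⟩
    calc g⁻¹ * b * g * (g⁻¹ * z * g) = g⁻¹ * (b * z) * g := by group
      _ = _ := by rw [← hzB b hb]; group
  have hz2 : IsPGroup 2 (zpowers (⟨_, hzX⟩ : X)) := by
    refine IsPGroup.of_card_dvd_pow (n := 1) ?_
    rw [Nat.card_zpowers]
    refine orderOf_dvd_of_pow_eq_one (Subtype.ext ?_)
    show (g⁻¹ * z * g) ^ (2 ^ 1) = 1
    rw [pow_one, pow_two, show g⁻¹ * z * g * (g⁻¹ * z * g) = g⁻¹ * (z * z) * g by group, hz]
    simp
  obtain ⟨Q, hQ⟩ := hz2.exists_le_sylow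
  obtain ⟨c, hc⟩ := MulAction.exists_smul_eq X Q P
  have hm : c * ⟨_, hzX⟩ * c⁻¹ ∈ P := by
    rw [← hc]; exact smul_mem_pointwise_smul _ (MulAut.conj c) _ (hQ (mem_zpowers _))
  have hf := h.fix_two hτ hC (P := (P : Subgroup X).map X.subtype) (P.isPGroup'.map _)
    (by rintro _ ⟨y, hy, rfl⟩; exact ⟨_, hP y hy, rfl⟩) (mem_map_of_mem _ hm)
  refine ⟨((g * (c : G)⁻¹ : G) : G ⧸ Fx α), H43.smul_mk_eq_iff.2 ?_, fun b hb =>
    H43.smul_mk_eq_iff.2 ?_⟩
  · have := mem_Fx.2 hf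
    simpa [mul_assoc] using this
  · have e := c.2 _ ⟨b, hb, rfl⟩
    have : (g * (c : G)⁻¹)⁻¹ * b * (g * (c : G)⁻¹) = g⁻¹ * b * g := by
      calc _ = (c : G) * (g⁻¹ * b * g) * (c : G)⁻¹ := by group
        _ = _ := by rw [← e]; group
    rw [this]
    exact H43.smul_mk_eq_iff.1 (hB b hb)

end Cfsg.Agent.H59.FixInv
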