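/-
Nilpotent action of a solvable Lie ring spanned by nilpotently acting subgroups, and Shalev's
form of Kreknin's theorem.
-/
import Cfsg.Agent.H19.Kreknin

set_option autoImplicit false

namespace Cfsg.Agent.H59

open Cfsg.Agent.H19

section Act

variable {L : Type*} [LieRing L] {U V W Z N N' : AddSubgroup L}

/-- the bracket of two additive subgroups -/
def lb (V N : AddSubgroup L) : AddSubgroup L :=
  AddSubgroup.closure {z | ∃ x ∈ V, ∃ y ∈ N, ⁅x, y⁆ = z}

/-- `[V, N, …, N]` -/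
def ac (N : AddSubgroup L) (n : ℕ) (V : AddSubgroup L) : AddSubgroup L := (fun Z => lb Z N)^[n] V

theorem lie_mem_lb {x y : L} (hx : x ∈ V) (hy : y ∈ N) : ⁅x, y⁆ ∈ lb V N :=
  AddSubgroup.subset_closure ⟨x, hx, y, hy, rfl⟩

theorem lb_le (h : ∀ x ∈ V, ∀ y ∈ N, ⁅x, y⁆ ∈ Z) : lb V N ≤ Z := by
  rw [lb, AddSubgroup.closure_le]
  rintro _ ⟨x, hx, y, hy, rfl⟩
  exact h x hx y hy

theorem lb_le_of_closure {s t : Set L} (hV : V ≤ AddSubgroup.closure s)
    (hN : N ≤ AddSubgroup.closure t) (h : ∀ x ∈ s, ∀ y ∈ t, ⁅x, y⁆ ∈ Z) : lb V N ≤ Z :=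
  lb_le fun x hx y hy => by
    have : AddSubgroup.closure s ≤ Z.comap (rmul y) := (AddSubgroup.closure_le _).2 fun x hx =>
      ((AddSubgroup.closure_le (Z.comap (lmul x))).2 (fun y hy => h x hx y hy)) (hN hy)
    exact this (hV hx)

theorem lb_mono {V' : AddSubgroup L} (h1 : V ≤ V') (h2 : N ≤ N') : lb V N ≤ lb V' N' :=
  lb_le fun _ hx _ hy => lie_mem_lb (h1 hx) (h2 hy)

theorem lb_sup_left : lb (V ⊔ W) N ≤ lb V N ⊔ lb W N := lb_le fun x hx y hy => by
  obtain ⟨a, ha, b, hb, rfl⟩ := AddSubgroup.mem_sup.1 hx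
  rw [add_lie]
  exact AddSubgroup.add_mem_sup (lie_mem_lb ha hy) (lie_mem_lb hb hy)

theorem lb_sup_right : lb V (N ⊔ N') ≤ lb V N ⊔ lb V N' := lb_le fun x hx y hy => by
  obtain ⟨a, ha, b, hb, rfl⟩ := AddSubgroup.mem_sup.1 hy
  rw [lie_add]
  exact AddSubgroup.add_mem_sup (lie_mem_lb hx ha) (lie_mem_lb hx hb)

theorem lb_bot_right : lb V ⊥ ≤ Z := lb_le fun x _ y hy => by
  rw [AddSubgroup.mem_bot.1 hy, lie_zero]; exact zero_mem _

theorem lb_jacobi : lb (lb Z U) V ≤ lb (lb Z V) U ⊔ lb Z (lb U V) :=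
  lb_le_of_closure le_rfl (AddSubgroup.closure_eq V).ge (by
    rintro _ ⟨z, hz, u, hu, rfl⟩ v hv
    rw [show ⁅⁅z, u⁆, v⁆ = ⁅⁅z, v⁆, u⁆ + ⁅z, ⁅u, v⁆⁆ by
      rw [leibniz_lie z u v, ← lie_skew u ⁅z, v⁆]; abel]
    exact AddSubgroup.add_mem_sup (lie_mem_lb (lie_mem_lb hz hv) hu)
      (lie_mem_lb hz (lie_mem_lb hu hv)))

theorem ac_succ (n : ℕ) : ac N (n + 1) V = ac N n (lb V N) := Function.iterate_succ_apply _ _ _

theorem ac_succ' (n : ℕ) : ac N (n + 1) V = lb (ac N n V) N := Function.iterate_succ_apply' _ _ _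

theorem ac_add (a b : ℕ) : ac N (a + b) V = ac N a (ac N b V) := Function.iterate_add_apply _ _ _ _

theorem ac_mono (n : ℕ) (h2 : N ≤ N') (h1 : V ≤ W) : ac N n V ≤ ac N' n W := by
  induction n with
  | zero => exact h1
  | succ n ih => rw [ac_succ', ac_succ']; exact lb_mono ih h2

theorem ac_sup (n : ℕ) : ac N n (V ⊔ W) ≤ ac N n V ⊔ ac N n W := by
  induction n with
  | zero => exact le_rfl
  | succ n ih => rw [ac_succ', ac_succ', ac_succ']; exact (lb_mono ih le_rfl).trans lb_sup_left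

theorem ac_le (n : ℕ) (h : lb W N ≤ W) (hZ : Z ≤ W) : ac N n Z ≤ W := by
  induction n with
  | zero => exact hZ
  | succ n ih => rw [ac_succ']; exact (lb_mono ih le_rfl).trans h

theorem ac_iSup {ι : Sort*} (n : ℕ) (f : ι → AddSubgroup L) (h : ∀ i, ac N n (f i) ≤ Z) :
    ac N n (⨆ i, f i) ≤ Z := by
  induction n generalizing f with
  | zero => exact iSup_le h
  | succ n ih =>
    rw [ac_succ]
    refine (ac_mono n le_rfl (lb_le fun x hx y hy => ?_)).trans
      (ih (fun i => lb (f i) N) fun i => by rw [← ac_succ]; exact h i)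
    have : ⨆ i, f i ≤ (⨆ i, lb (f i) N).comap (rmul y) := iSup_le fun i x hx =>
      AddSubgroup.mem_iSup_of_mem i (lie_mem_lb hx hy)
    exact this hx

theorem ac_swap {N₁ N₂ : AddSubgroup L} (hV : lb V N ≤ V) (hW : lb W N ≤ W) (h1 : N₁ ≤ N)
    (h2 : N₂ ≤ N) (hc : lb V (lb N N) ≤ W) (hZ : Z ≤ V) (b : ℕ) (h : ac N₂ b Z ≤ W) :
    ac N₂ b (lb Z N₁) ≤ W := by
  have : ∀ b, ac N₂ b (lb Z N₁) ≤ lb (ac N₂ b Z) N₁ ⊔ W := fun b => by
    induction b with
    | zero => exact le_sup_left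
    | succ b ih =>
      rw [ac_succ', ac_succ']
      refine (lb_mono ih le_rfl).trans (lb_sup_left.trans (sup_le (lb_jacobi.trans
        (sup_le_sup_left ?_ _)) (((lb_mono le_rfl h2).trans hW).trans le_sup_right)))
      exact (lb_mono (ac_le b ((lb_mono le_rfl h2).trans hV) hZ) (lb_mono h1 h2)).trans hc
  exact (this b).trans (sup_le ((lb_mono h h1).trans hW) le_rfl)

theorem ac_sup_le {N₁ N₂ : AddSubgroup L} (hV : lb V N ≤ V) (hW : lb W N ≤ W) (h1 : N₁ ≤ N)
    (h2 : N₂ ≤ N) (hc : lb V (lb N N) ≤ W) (n : ℕ) : ∀ a b Z, a + b = n → Z ≤ V →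
      ac N₁ a Z ≤ W → ac N₂ b Z ≤ W → ac (N₁ ⊔ N₂) n Z ≤ W := by
  have hW' : lb W (N₁ ⊔ N₂) ≤ W := (lb_mono le_rfl (sup_le h1 h2)).trans hW
  induction n with
  | zero =>
    intro a b Z e _ ha _
    obtain rfl : a = 0 := by omega
    exact ha
  | succ n ih =>
    intro a b Z e hZ ha hb
    rcases a with _ | a
    · exact ac_le _ hW' ha
    rcases b with _ | b
    · exact ac_le _ hW' hb
    rw [ac_succ]
    refine (ac_mono n le_rfl lb_sup_right).trans ((ac_sup n).trans (sup_le ?_ ?_))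
    · exact ih a (b + 1) _ (by omega) ((lb_mono hZ h1).trans hV) (by rwa [← ac_succ])
        (ac_swap hV hW h1 h2 hc hZ _ hb)
    · exact ih (a + 1) b _ (by omega) ((lb_mono hZ h2).trans hV)
        (ac_swap hV hW h2 h1 hc hZ _ ha) (by rwa [← ac_succ])

theorem ac_step {ι : Type*} [Finite ι] {U : ι → AddSubgroup L} {c m n : ℕ} (hm : Nat.card ι ≤ m)
    (hU : N ≤ ⨆ i, N ⊓ U i) (hc : ∀ i, ac (U i) c ⊤ = ⊥) (h1 : lb N N ≤ N') (h2 : N' ≤ N) :
    ac N ((m * c + 1) * n) ⊤ ≤ ac N' n ⊤ := by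
  classical
  cases nonempty_fintype ι
  have sub : ∀ V, lb V N ≤ V → lb (lb V N') N ≤ lb V N' := fun V hV =>
    lb_jacobi.trans (sup_le (lb_mono hV le_rfl) (lb_mono le_rfl ((lb_mono h2 le_rfl).trans h1)))
  have key : ∀ V, lb V N ≤ V → ac N (m * c + 1) V ≤ lb V N' := fun V hV => by
    have : ∀ s : Finset ι, ac (s.sup fun i => N ⊓ U i) (s.card * c + 1) V ≤ lb V N' := fun s => by
      induction s using Finset.induction_on with
      | empty => simpa [ac] using lb_bot_right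
      | insert i s hi ih =>
        rw [Finset.sup_insert, Finset.card_insert_of_notMem hi]
        exact ac_sup_le hV (sub V hV) inf_le_left (Finset.sup_le fun _ _ => inf_le_left)
          (lb_mono le_rfl h1) _ c (s.card * c + 1) V (by ring) le_rfl
          ((ac_mono c inf_le_right le_top).trans ((hc i).le.trans bot_le)) ih
    obtain ⟨j, hj⟩ := Nat.exists_eq_add_of_le hm
    rw [hj, show (Nat.card ι + j) * c + 1 = j * c + (Nat.card ι * c + 1) by ring, ac_add]
    refine ac_le _ (sub V hV) ((ac_mono _ (hU.trans ?_) le_rfl).trans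
      (by simpa using this Finset.univ))
    exact iSup_le fun i => Finset.le_sup (f := fun i => N ⊓ U i) (Finset.mem_univ i)
  have sub' : ∀ n, lb (ac N' n ⊤) N ≤ ac N' n ⊤ := fun n => by
    induction n with
    | zero => exact le_top
    | succ n ih => rw [ac_succ']; exact sub _ ih
  induction n with
  | zero => exact le_rfl
  | succ n ih =>
    rw [mul_add, mul_one, add_comm, ac_add, ac_succ' (N := N')]
    exact (ac_mono _ le_rfl ih).trans (key _ (sub' n))

/-- a solvable Lie ring all of whose derived terms are spanned by their intersections with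
boundedly many nilpotently acting subgroups acts nilpotently -/
theorem ac_chain {ι : Type*} [Finite ι] {U : ι → AddSubgroup L} {c m : ℕ} (hm : Nat.card ι ≤ m)
    (hc : ∀ i, ac (U i) c ⊤ = ⊥) (f : ℕ) : ∀ N : ℕ → AddSubgroup L, N f = ⊥ →
      (∀ r, lb (N r) (N r) ≤ N (r + 1)) → (∀ r, N (r + 1) ≤ N r) →
      (∀ r, N r ≤ ⨆ i, N r ⊓ U i) → ac (N 0) ((m * c + 1) ^ f) ⊤ = ⊥ := by
  induction f with
  | zero => intro N h _ _ _; rw [h, eq_bot_iff]; exact lb_bot_right
  | succ f ih =>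
    intro N h h1 h2 h3
    rw [pow_succ', eq_bot_iff, ← ih (fun r => N (r + 1)) h (fun r => h1 _) (fun r => h2 _)
      fun r => h3 _]
    exact ac_step hm (h3 0) hc (h1 0) (h2 0)

end Act

section Graded

variable {L : Type*} [LieRing L]

/-- the bound in Shalev's theorem -/
def sk (m : ℕ) : ℕ → ℕ
  | 0 => m
  | k + 1 => sk m k + (sk m k + 1) * m

theorem ggen_norm {n : ℕ} {F : ZMod n → AddSubgroup L} (hF : gder F ≤ F) (k : ℕ) (i : ZMod n) :
    lb (ggen (gtrunc k F) i) (F 0) ≤ ggen (gtrunc k F) i := by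
  let Z : ZMod n → AddSubgroup L := fun i =>
    ggen (gtrunc k F) i ⊓ ⨅ y ∈ F 0, (ggen (gtrunc k F) i).comap (rmul y)
  have hZ : ∀ i x, x ∈ Z i ↔ x ∈ ggen (gtrunc k F) i ∧ ∀ y ∈ F 0, ⁅x, y⁆ ∈ ggen (gtrunc k F) i := by
    intro v y
    simp [Z, AddSubgroup.mem_iInf, rmul]
  have : ggen (gtrunc k F) ≤ Z := by
    refine ggen_le (fun v x hx => (hZ v x).2 ⟨le_ggen _ v hx, fun y hy => le_ggen _ v ?_⟩)
      fun v => gbr_le fun v₁ v₂ y₁ h₁ y₂ h₂ hv => ?_
    · unfold gtrunc at hx ⊢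
      split_ifs at hx ⊢
      · exact hF v (lie_mem_gbr hx hy (add_zero v))
      · rw [AddSubgroup.mem_bot.1 hx, zero_lie]; exact zero_mem _
    · rw [hZ] at h₁ h₂ ⊢
      refine ⟨ggen_closed _ v (lie_mem_gbr h₁.1 h₂.1 hv), fun y hy => ?_⟩
      rw [show ⁅⁅y₁, y₂⁆, y⁆ = ⁅⁅y₁, y⁆, y₂⁆ + ⁅y₁, ⁅y₂, y⁆⁆ by
        rw [leibniz_lie y₁ y₂ y, ← lie_skew y₂ ⁅y₁, y⁆]; abel]
      exact add_mem (ggen_closed _ v (lie_mem_gbr (h₁.2 y hy) h₂.1 hv))
        (ggen_closed _ v (lie_mem_gbr h₁.1 (h₂.2 y hy) hv))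
  exact lb_le fun x hx y hy => ((hZ i x).1 (this i hx)).2 y hy

theorem le_ggen_gtrunc {n : ℕ} {F : ZMod n → AddSubgroup L} {k : ℕ} {i : ZMod n} (h : k ≤ i.val) :
    F i ≤ ggen (gtrunc k F) i := le_trans (by rw [gtrunc, if_pos h]) (le_ggen _ i)

theorem shalev_aux {n : ℕ} [NeZero n] (m k : ℕ) : ∀ F : ZMod n → AddSubgroup L, gder F ≤ F →
    ac (F 0) m ⊤ = ⊥ → gder^[sk m k] F ≤ ggen (gtrunc (k + 1) F) := by
  induction k with
  | zero =>
    intro F hF h0 i
    by_cases hi : i = 0; swap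
    · exact ((gder_iterate_le hF _).1 i).trans
        (le_ggen_gtrunc (Nat.pos_of_ne_zero fun e => hi ((ZMod.val_eq_zero i).1 e)))
    have : ∀ r, gder^[r] F 0 ≤ ac (F 0) r ⊤ ⊔ ggen (gtrunc 1 F) 0 := fun r => by
      induction r with
      | zero => exact le_sup_of_le_left le_top
      | succ r ih =>
        rw [Function.iterate_succ_apply', ac_succ']
        refine gbr_le fun u v x hx y hy huv => ?_
        have hr := (gder_iterate_le hF r).1
        by_cases hu : u = 0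
        · subst hu
          obtain rfl : v = 0 := by simpa using huv
          exact (lb_sup_left.trans (sup_le_sup_left (ggen_norm hF 1 0) _))
            (lie_mem_lb (ih hx) (hr 0 hy))
        · have hv : v ≠ 0 := fun e => hu (by simpa [e] using huv)
          exact AddSubgroup.mem_sup_right (ggen_closed _ 0 (lie_mem_gbr
            (le_ggen_gtrunc (Nat.pos_of_ne_zero fun e => hu ((ZMod.val_eq_zero u).1 e)) (hr u hx))
            (le_ggen_gtrunc (Nat.pos_of_ne_zero fun e => hv ((ZMod.val_eq_zero v).1 e)) (hr v hy))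
            huv))
    subst hi
    simpa [h0, sk] using this m
  | succ k ih =>
    intro F hF h0
    have h0' : ∀ r, ac (gder^[r] F 0) m ⊤ = ⊥ := fun r =>
      eq_bot_iff.2 (h0 ▸ ac_mono m ((gder_iterate_le hF r).1 0) le_rfl)
    have key : ∀ i : ZMod n, i.val = k + 1 → ∀ j, gder^[(sk m k + 1) * j] F i ≤
        ac (F 0) j ⊤ ⊔ ggen (gtrunc (k + 2) F) i := fun i hi j => by
      induction j with
      | zero => exact le_sup_of_le_left le_top
      | succ j ihj =>
        have hG := gder_iterate_le hF ((sk m k + 1) * j)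
        rw [mul_add, mul_one, add_comm, Function.iterate_add_apply, Function.iterate_succ_apply',
          ac_succ']
        refine (gbr_mono (gder_iterate_le hG.2 _).1 (ih _ hG.2 (h0' _)) i).trans
          ((gbr_ggen_le (gtrunc_le _ _) hG.2 i).trans (gbr_le fun u v x hx y hy huv => ?_))
        unfold gtrunc at hy
        split_ifs at hy with hv; swap
        · rw [AddSubgroup.mem_bot.1 hy, lie_zero]; exact zero_mem _
        by_cases hu : u = 0
        · subst hu
          obtain rfl : v = i := by simpa using huv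
          rw [← lie_skew]
          exact neg_mem ((lb_sup_left.trans (sup_le_sup_left (ggen_norm hF _ _) _))
            (lie_mem_lb (ihj hy) (hG.1 0 hx)))
        have h1 : u.val ≠ 0 := fun h => hu ((ZMod.val_eq_zero u).mp h)
        have h2 := ZMod.val_lt u
        have h3 := ZMod.val_lt v
        have h4 := ZMod.val_add u v
        rw [huv, hi] at h4
        have h5 : n ≤ u.val + v.val := by
          by_contra h
          rw [Nat.mod_eq_of_lt (by omega)] at h4
          omega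
        rw [Nat.mod_eq_sub_mod h5, Nat.mod_eq_of_lt (by omega)] at h4
        exact AddSubgroup.mem_sup_right (ggen_closed _ i (lie_mem_gbr
          (le_ggen_gtrunc (by omega) (hG.1 u hx)) (le_ggen_gtrunc (by omega) (hG.1 v hy)) huv))
    have hG := gder_iterate_le hF ((sk m k + 1) * m)
    rw [sk, Function.iterate_add_apply]
    refine (ih _ hG.2 (h0' _)).trans (ggen_le (fun i => ?_) (ggen_closed _))
    rw [gtrunc]
    split_ifs with hi; swap
    · exact bot_le
    rcases hi.eq_or_lt with hi | hi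
    · simpa [h0] using key i hi.symm m
    · exact (hG.1 i).trans (le_ggen_gtrunc hi)

/-- **Shalev's form of Kreknin's theorem.** -/
theorem shalev {n : ℕ} [NeZero n] (m : ℕ) (F : ZMod n → AddSubgroup L) (hF : gder F ≤ F)
    (h0 : ac (F 0) m ⊤ = ⊥) : gder^[sk m (n - 1)] F = ⊥ := by
  rw [eq_bot_iff]
  refine (shalev_aux m _ F hF h0).trans (ggen_le (fun i => ?_) fun i => ?_)
  · have := ZMod.val_lt i
    rw [gtrunc, if_neg (by omega)]
    exact le_rfl
  · refine gbr_le fun u v x hx y _ _ => ?_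
    rw [Pi.bot_apply, AddSubgroup.mem_bot] at hx
    rw [hx, zero_lie]
    exact zero_mem _

end Graded

end Cfsg.Agent.H59
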