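/-
Shalev's theorem for Lie rings with an automorphism of prime order.
-/
import Cfsg.Agent.H59.Shalev
import Cfsg.Agent.H19.HKKGroup

set_option autoImplicit false

namespace Cfsg.Agent.H59

open Cfsg.Agent.H19
open scoped TensorProduct

theorem mem_of_nsmul_mem {M : Type*} [AddCommGroup M] {S : AddSubgroup M} {e p : ℕ}
    (hc : e.Coprime p) {x : M} (he : e • x = 0) (h : p • x ∈ S) : x ∈ S := by
  obtain ⟨a, b, hab⟩ := Nat.isCoprime_iff_coprime.2 hc
  have : x = a • e • x + b • p • x := by
    rw [← natCast_zsmul, ← natCast_zsmul, smul_smul, smul_smul, ← add_smul, hab, one_smul]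
  rw [this, he, smul_zero, zero_add]
  exact zsmul_mem h b

/-- the derived subring -/
def ld {L : Type*} [LieRing L] (V : AddSubgroup L) : AddSubgroup L := lb V V

theorem shalev_aut_aux {L M : Type*} [LieRing L] [LieRing M] {p m n : ℕ} [hp : Fact p.Prime]
    (α : L →+ L) (hα : ∀ a b, α ⁅a, b⁆ = ⁅α a, α b⁆) (hαp : ∀ v, α^[p] v = v)
    (hn : n.Coprime p) (hL : ∀ v : L, n • v = 0) (C : AddSubgroup L)
    (hC : ∀ v, ∑ k ∈ Finset.range p, α^[k] v ∈ C) (hm : ac C m ⊤ = ⊥)
    {A : Type} [CommRing A] (χ : ZMod p → A) (hχ : ∀ i j, χ i * χ j = χ (i + j)) (hχ0 : χ 0 = 1)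
    (φ : A →+ ℤ) (e1 : ∀ i, φ (χ i) = if i = 1 then 1 else 0)
    [LieAlgebra A M] (t : A →+ L →+ M) (ht1 : ∀ a b v, a • t b v = t (a * b) v)
    (ht2 : ∀ a b v w, ⁅t a v, t b w⁆ = t (a * b) ⁅v, w⁆)
    (hind : ∀ (P : M → Prop) (x : M), P 0 → (∀ a v, P (t a v)) → (∀ x y, P x → P y → P (x + y)) →
      P x)
    (β : M →ₗ[A] M) (hβ : ∀ a v, β (t a v) = t a (α v))
    (ψ : M →+ L) (hψ : ∀ a v, ψ (t a v) = φ a • v) :
    ld^[sk m (p - 1)] (⊤ : AddSubgroup L) = ⊥ := by
  let s : A := ∑ i, χ i
  have hs : ∀ j, χ j * s = s := by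
    intro j
    simp only [s, Finset.mul_sum, hχ]
    exact Equiv.sum_comp (Equiv.addLeft j) χ
  let e : A := p - s
  have he : e * e = p • e := by
    have : s * s = p • s := by
      conv_lhs => enter [1]; unfold s
      simp only [Finset.sum_mul, hs, Finset.sum_const, Finset.card_univ, ZMod.card]
    simp only [e, nsmul_eq_mul] at this ⊢
    linear_combination this
  have hβi : ∀ (k : ℕ) (a : A) (v : L), β^[k] (t a v) = t a (α^[k] v) := by
    intro k a v
    induction k with
    | zero => rfl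
    | succ k ih => rw [Function.iterate_succ_apply', Function.iterate_succ_apply', ih, hβ]
  have hβl : ∀ x y, β ⁅x, y⁆ = ⁅β x, β y⁆ := by
    intro x y
    refine hind (fun x => β ⁅x, y⁆ = ⁅β x, β y⁆) x (by simp) (fun a v => ?_) fun a b ha hb => ?_
    · refine hind (fun y => β ⁅t a v, y⁆ = ⁅β (t a v), β y⁆) y (by simp) (fun b w => ?_)
        fun a b ha hb => ?_
      · rw [ht2, hβ, hβ, hβ, ht2, hα]
      · rw [lie_add, map_add, map_add, lie_add, ha, hb]
    · rw [add_lie, map_add, map_add, add_lie, ha, hb]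
  let T : AddSubgroup L → AddSubgroup M := fun V =>
    AddSubgroup.closure {x | ∃ a, ∃ v ∈ V, t a v = x}
  have hT : ∀ {V : AddSubgroup L} (a : A) {v : L}, v ∈ V → t a v ∈ T V := fun a v hv =>
    AddSubgroup.subset_closure ⟨a, v, hv, rfl⟩
  have hTac : ∀ j, ac (T C) j ⊤ ≤ T (ac C j ⊤) := fun j => by
    induction j with
    | zero =>
      exact fun x _ => hind (fun x => x ∈ T ⊤) x (zero_mem _)
        (fun a v => hT a (AddSubgroup.mem_top v)) fun _ _ => add_mem
    | succ j ih =>
      rw [ac_succ', ac_succ']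
      refine lb_le_of_closure ih le_rfl ?_
      rintro _ ⟨a, v, hv, rfl⟩ _ ⟨b, w, hw, rfl⟩
      rw [ht2]; exact hT _ (lie_mem_lb hv hw)
  have hM : ∀ x : M, n • x = 0 := fun x => hind (fun x => n • x = 0) x (nsmul_zero n)
    (fun a v => by rw [← map_nsmul, hL, map_zero]) fun a b ha hb => by
      rw [nsmul_add, ha, hb, add_zero]
  have hN : ∀ x : M, ∑ k ∈ Finset.range p, β^[k] x ∈ T C := by
    intro x
    refine hind (fun x => ∑ k ∈ Finset.range p, β^[k] x ∈ T C) x (by simp [iterate_map_zero])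
      (fun a v => ?_) fun a b ha hb => ?_
    · simp only [hβi]
      rw [← map_sum]; exact hT a (hC v)
    · simp only [iterate_map_add, Finset.sum_add_distrib]; exact add_mem ha hb
  let F : ZMod p → AddSubgroup M := fun i =>
    { carrier := {x | β x = χ i • x}
      zero_mem' := by simp
      add_mem' := fun {a b} (ha : β a = _) (hb : β b = _) => by
        change β (a + b) = _
        rw [map_add, ha, hb, smul_add]
      neg_mem' := fun {a} (ha : β a = _) => by
        change β (-a) = _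
        rw [map_neg, ha, smul_neg] }
  have hF : ∀ i x, x ∈ F i ↔ β x = χ i • x := fun _ _ => Iff.rfl
  have h1 := shalev m F (fun i => gbr_le fun u v x hx y hy huv => by
    rw [hF] at hx hy ⊢
    rw [hβl, hx, hy, smul_lie, lie_smul, smul_smul, hχ, huv]) (by
    have : F 0 ≤ T C := fun x hx => by
      rw [hF, hχ0, one_smul] at hx
      have := hN x
      simp only [Function.iterate_fixed hx, Finset.sum_const, Finset.card_range] at this
      exact mem_of_nsmul_mem hn (hM x) this
    refine eq_bot_iff.2 ((ac_mono m this le_rfl).trans ((hTac m).trans ?_))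
    rw [hm]
    refine (AddSubgroup.closure_le _).2 ?_
    rintro _ ⟨a, v, hv, rfl⟩
    rw [AddSubgroup.mem_bot.1 hv, map_zero]; exact zero_mem _)
  have h2 : ∀ v : L, t e v ∈ ⨆ i, F i := by
    intro v
    have hcomp : ∀ (i : ZMod p) (v : L),
        ∑ k ∈ Finset.range p, t (χ (-i * k)) (α^[k] v) ∈ F i := by
      intro i v
      let g : ℕ → M := fun k => t (χ (i + -i * k)) (α^[k] v)
      have e1 : ∀ k : ℕ, β (t (χ (-i * k)) (α^[k] v)) = g (k + 1) := by
        intro k
        simp only [hβ, g, Function.iterate_succ_apply']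
        congr 3
        push_cast
        ring
      have e2 : ∀ k : ℕ, χ i • (t (χ (-i * k)) (α^[k] v)) = g k := by
        intro k
        rw [ht1, hχ]
      have e3 : g p = g 0 := by simp [g, hαp]
      rw [hF, map_sum, Finset.smul_sum]
      simp only [e1, e2]
      have := (Finset.sum_range_succ g p).symm.trans (Finset.sum_range_succ' g p)
      rw [e3] at this
      exact (add_right_cancel this).symm
    have hsum : ∑ i : ZMod p, ∑ k ∈ Finset.range p, t (χ (-i * k)) (α^[k] v) =
        t e v + t s (∑ k ∈ Finset.range p, α^[k] v) := by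
      rw [Finset.sum_comm, map_sum]
      simp only [← AddMonoidHom.finsetSum_apply, ← map_sum]
      obtain ⟨q, hq⟩ : ∃ q, p = q + 1 := ⟨p - 1, by have := hp.out.pos; omega⟩
      have e1 : ∀ f : ℕ → M, ∑ k ∈ Finset.range p, f k =
          ∑ k ∈ Finset.range q, f (k + 1) + f 0 := fun f => by
        rw [← Finset.sum_range_succ', ← hq]
      have e2 : ∀ f : ℕ → L, ∑ k ∈ Finset.range p, f k =
          ∑ k ∈ Finset.range q, f (k + 1) + f 0 := fun f => by
        rw [← Finset.sum_range_succ', ← hq]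
      rw [e1, e2, map_add, map_sum (t s), add_left_comm]
      congr 1
      · apply Finset.sum_congr rfl
        intro k hk
        congr 2
        have h0 : -((k + 1 : ℕ) : ZMod p) ≠ 0 := by
          rw [neg_ne_zero, Ne, ZMod.natCast_eq_zero_iff]
          intro h
          have := Nat.le_of_dvd (Nat.succ_pos k) h
          have := Finset.mem_range.mp hk
          omega
        simp only [neg_mul_comm]
        exact Equiv.sum_comp (Equiv.mulRight₀ _ h0) χ
      · rw [Function.iterate_zero_apply, ← AddMonoidHom.add_apply, ← map_add]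
        congr 2
        simp [e, hχ0]
    have h3 : t s (∑ k ∈ Finset.range p, α^[k] v) ∈ F 0 := by
      have h4 := hcomp 0 v
      simp only [neg_zero, zero_mul, hχ0, ← map_sum] at h4
      rw [hF, hχ0, one_smul] at h4 ⊢
      rw [← mul_one s, ← ht1, map_smul, h4]
    rw [eq_sub_of_add_eq hsum.symm]
    exact sub_mem (sum_mem fun i _ => AddSubgroup.mem_iSup_of_mem i (hcomp i v))
      (AddSubgroup.mem_iSup_of_mem 0 h3)
  have h3 : ∀ r : ℕ, ∃ N : ℕ, ∀ w ∈ ld^[r] (⊤ : AddSubgroup L),
      t (p ^ N • e) w ∈ ⨆ i, gder^[r] F i := by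
    intro r
    induction r with
    | zero => exact ⟨0, fun w _ => by simpa using h2 w⟩
    | succ r ih =>
      obtain ⟨N, ih⟩ := ih
      refine ⟨N + N + 1, ?_⟩
      rw [Function.iterate_succ_apply', Function.iterate_succ_apply']
      change lb _ _ ≤ (⨆ i, gbr (gder^[r] F) (gder^[r] F) i).comap (t (p ^ (N + N + 1) • e))
      refine lb_le fun x hx y hy => ?_
      have := lie_mem_iSup_gbr (ih x hx) (ih y hy)
      rw [ht2, smul_mul_smul_comm, he, smul_smul, ← pow_add, ← pow_succ] at this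
      exact this
  obtain ⟨N, h3⟩ := h3 (sk m (p - 1))
  refine eq_bot_iff.2 fun w hw => ?_
  have h4 := h3 w hw
  simp only [h1, Pi.bot_apply, iSup_bot, AddSubgroup.mem_bot] at h4
  have hφ : φ e = -1 := by
    have e2 : (p : A) = p • χ 0 := by rw [hχ0, nsmul_one]
    simp only [e, s, map_sub, map_sum, e2, map_nsmul, e1]
    simp
  have h5 := congrArg ψ h4
  rw [hψ, map_nsmul, hφ, map_zero, smul_assoc, neg_smul, one_smul, smul_neg, neg_eq_zero] at h5
  exact mem_of_nsmul_mem (hn.pow_right N) (hL w) h5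

/-- if the norms of an automorphism of prime order `p` of a `p'`-torsion Lie ring act nilpotently,
the Lie ring is solvable of bounded derived length -/
theorem shalev_aut {L : Type*} [LieRing L] {p m n : ℕ} [hp : Fact p.Prime]
    (α : L →+ L) (hα : ∀ a b, α ⁅a, b⁆ = ⁅α a, α b⁆) (hαp : ∀ v, α^[p] v = v)
    (hn : n.Coprime p) (hL : ∀ v : L, n • v = 0) (C : AddSubgroup L)
    (hC : ∀ v, ∑ k ∈ Finset.range p, α^[k] v ∈ C) (hm : ac C m ⊤ = ⊥) :
    ld^[sk m (p - 1)] (⊤ : AddSubgroup L) = ⊥ := by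
  let φ : AddMonoidAlgebra ℤ (ZMod p) →+ ℤ := (Finsupp.applyAddHom (1 : ZMod p)).comp
      (AddMonoidAlgebra.coeffAddEquiv : AddMonoidAlgebra ℤ (ZMod p) ≃+ _).toAddMonoidHom
  exact shalev_aut_aux (M := AddMonoidAlgebra ℤ (ZMod p) ⊗[ℤ] L) α hα hαp hn hL C hC hm
    (A := AddMonoidAlgebra ℤ (ZMod p)) (fun i => AddMonoidAlgebra.single i 1)
    (fun i j => by simp [AddMonoidAlgebra.single_mul_single]) rfl φ
    (fun i => by simp [φ, Finsupp.single_apply])
    (AddMonoidHom.mk' (fun a => AddMonoidHom.mk' (fun v => a ⊗ₜ v) (TensorProduct.tmul_add a))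
      fun a b => AddMonoidHom.ext fun v => TensorProduct.add_tmul a b v)
    (fun a b v => rfl) (fun a b v w => rfl)
    (fun P x h0 h1 h2 => TensorProduct.induction_on x h0 h1 h2)
    (α.toIntLinearMap.baseChange _) (fun a v => rfl)
    ((TensorProduct.lid ℤ L).toLinearMap ∘ₗ φ.toIntLinearMap.rTensor L).toAddMonoidHom
    (fun a v => rfl)

end Cfsg.Agent.H59
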