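/-
An involution `z` whose class meets an index two subgroup of `C(z)` only in `z`: cyclic
2-groups, the weak closure of `z` in a Sylow 2-subgroup.
-/
import Cfsg.Agent.H42.SylIn
import Cfsg.Agent.H42.Isolated
import Mathlib.Data.Set.Finite.Lemmas

set_option autoImplicit false

namespace Cfsg.Agent.H59.Std

open Cfsg Subgroup H42

variable {G : Type*} [Group G]

/-- 2-elements -/
def P2 (g : G) : Prop := ∃ n : ℕ, g ^ 2 ^ n = 1

theorem P2.of_mem {S : Subgroup G} (hS : IsPGroup 2 S) {g : G} (h : g ∈ S) : P2 g :=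
  let ⟨n, hn⟩ := hS ⟨g, h⟩; ⟨n, congrArg Subtype.val hn⟩

theorem P2.zp {g x : G} (h : P2 g) (hx : x ∈ zpowers g) : P2 x := by
  obtain ⟨n, hn⟩ := h
  obtain ⟨i, rfl⟩ := hx
  exact ⟨n, by rw [← zpow_natCast, ← zpow_mul, mul_comm, zpow_mul, zpow_natCast, hn, one_zpow]⟩

theorem P2.isP {g : G} (h : P2 g) : IsPGroup 2 (zpowers g) := fun x =>
  let ⟨n, hn⟩ := h.zp x.2; ⟨n, Subtype.ext hn⟩

theorem zp_comm {g x y : G} (hx : x ∈ zpowers g) (hy : y ∈ zpowers g) : x * y = y * x := by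
  obtain ⟨i, rfl⟩ := hx
  obtain ⟨j, rfl⟩ := hy
  exact (Commute.zpow_zpow_self g i j).eq

theorem zp_trans {g x y : G} (hx : x ∈ zpowers g) (hy : y ∈ zpowers x) : y ∈ zpowers g :=
  zpowers_le.2 hx hy

theorem sq_mem {g : G} : g * g ∈ zpowers g := mul_mem (mem_zpowers g) (mem_zpowers g)

theorem sq_mem_sq {g x : G} (hx : x ∈ zpowers g) : x * x ∈ zpowers (g * g) := by
  obtain ⟨i, rfl⟩ := hx
  exact ⟨i, (Commute.refl g).mul_zpow i⟩

theorem exists_sqrt {g x : G} (hx : x ∈ zpowers (g * g)) : ∃ b ∈ zpowers g, x = b * b := by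
  obtain ⟨i, rfl⟩ := hx
  exact ⟨g ^ i, ⟨i, rfl⟩, (Commute.refl g).mul_zpow i⟩

theorem conj_zp {s g x : G} (h : s * g * s⁻¹ ∈ zpowers g) (hx : x ∈ zpowers g) :
    s * x * s⁻¹ ∈ zpowers x := by
  obtain ⟨i, rfl⟩ := hx
  obtain ⟨j, hj⟩ := h
  exact ⟨j, by simp only at hj ⊢; rw [← zpow_mul, mul_comm i, zpow_mul, hj, conj_zpow]⟩

theorem conj_zp' {k x y : G} (hy : y ∈ zpowers x) : k * y * k⁻¹ ∈ zpowers (k * x * k⁻¹) := by
  obtain ⟨i, rfl⟩ := hy
  exact ⟨i, conj_zpow⟩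

theorem comm_zp {s g x : G} (h : s * g = g * s) (hx : x ∈ zpowers g) : s * x = x * s := by
  obtain ⟨i, rfl⟩ := hx
  exact (Commute.zpow_right h i).eq

theorem inv_zp {s g x : G} (h : s * g * s⁻¹ = g⁻¹) (hx : x ∈ zpowers g) :
    s * x * s⁻¹ = x⁻¹ := by
  obtain ⟨i, rfl⟩ := hx
  simp only
  rw [← conj_zpow, h, inv_zpow]

theorem P2.sq_or_gen {g x : G} (h : P2 g) (hx : x ∈ zpowers g) :
    x ∈ zpowers (g * g) ∨ g ∈ zpowers x := by
  obtain ⟨n, hn⟩ := h
  obtain ⟨i, rfl⟩ := hx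
  rcases Int.even_or_odd i with ⟨j, rfl⟩ | hi
  · exact Or.inl ⟨j, by simp only; rw [(Commute.refl g).mul_zpow, zpow_add]⟩
  · refine Or.inr (mem_zpowers_zpow_iff.2 ?_)
    have : Nat.Coprime i.natAbs (orderOf g) :=
      Nat.Coprime.coprime_dvd_right (orderOf_dvd_of_pow_eq_one hn)
        (Nat.Coprime.pow_right n (Nat.coprime_two_right.2 (Int.natAbs_odd.2 hi)))
    exact this

theorem P2.total {g x y : G} (h : P2 g) (hx : x ∈ zpowers g) (hy : y ∈ zpowers g) :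
    x ∈ zpowers y ∨ y ∈ zpowers x := by
  obtain ⟨n, hn⟩ := h
  induction n generalizing g with
  | zero =>
    obtain rfl : g = 1 := by simpa using hn
    rw [zpowers_one_eq_bot, mem_bot] at hx
    exact Or.inl (hx ▸ one_mem _)
  | succ n ih =>
    rcases P2.sq_or_gen ⟨_, hn⟩ hx with hx' | hx'
    · rcases P2.sq_or_gen ⟨_, hn⟩ hy with hy' | hy'
      · exact ih hx' hy' (by rw [← sq, ← pow_mul, ← pow_succ', hn])
      · exact Or.inl (zp_trans hy' hx)
    · exact Or.inr (zp_trans hx' hy)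

theorem mem_zp_two {x z : G} (z2 : z * z = 1) (h : x ∈ zpowers z) : x = 1 ∨ x = z := by
  rcases P2.sq_or_gen ⟨1, by simpa [sq] using z2⟩ h with h1 | h1
  · rw [z2, zpowers_one_eq_bot, mem_bot] at h1
    exact Or.inl h1
  · obtain ⟨i, rfl⟩ := h
    rcases Int.even_or_odd' i with ⟨j, rfl | rfl⟩
    · left; simp only; rw [zpow_mul, zpow_two, z2, one_zpow]
    · right; simp only; rw [zpow_add, zpow_mul, zpow_two, z2, one_zpow, one_mul, zpow_one]

theorem P2.uniq {g x z : G} (h : P2 g) (hx : x ∈ zpowers g) (hz : z ∈ zpowers g) (x2 : x * x = 1)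
    (z2 : z * z = 1) (z1 : z ≠ 1) : x = 1 ∨ x = z := by
  rcases h.total hx hz with h1 | h1
  · exact mem_zp_two z2 h1
  · rcases mem_zp_two x2 h1 with e | e
    exacts [absurd e z1, Or.inr e.symm]

theorem P2.eq_one {y : G} (h : P2 y) (hy : y ∈ zpowers (y * y)) : y = 1 := by
  obtain ⟨n, hn⟩ := h
  induction n generalizing y with
  | zero => simpa using hn
  | succ n ih =>
    have := ih (sq_mem_sq hy) (by rw [← sq, ← pow_mul, ← pow_succ', hn])
    rwa [this, zpowers_one_eq_bot, mem_bot] at hy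

theorem P2.exists_inv {y : G} (h : P2 y) (hy : y ≠ 1) : ∃ w ∈ zpowers y, w ≠ 1 ∧ w * w = 1 := by
  obtain ⟨n, hn⟩ := h
  induction n generalizing y with
  | zero => exact absurd (by simpa using hn) hy
  | succ n ih =>
    by_cases e : y * y = 1
    · exact ⟨y, mem_zpowers y, hy, e⟩
    · obtain ⟨w, hw, h1⟩ := ih e (by rw [← sq, ← pow_mul, ← pow_succ', hn])
      exact ⟨w, zp_trans sq_mem hw, h1⟩

theorem P2.exists_four {y : G} (h : P2 y) (hy : y * y ≠ 1) :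
    ∃ v ∈ zpowers y, v * v ≠ 1 ∧ v * v * (v * v) = 1 := by
  obtain ⟨w, hw, h1, h2⟩ := (h.zp sq_mem).exists_inv hy
  obtain ⟨v, hv, rfl⟩ := exists_sqrt hw
  exact ⟨v, hv, h1, h2⟩

theorem P2.four_mem {g w c : G} (h : P2 g) (hw : w ∈ zpowers g) (hc : c ∈ zpowers g)
    (w2 : w * w ≠ 1) (c4 : c * c * (c * c) = 1) : c ∈ zpowers w := by
  rcases h.total hc hw with h1 | h1
  · exact h1
  rcases (h.zp hc).sq_or_gen h1 with h2 | h2
  · rcases mem_zp_two c4 h2 with e | e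
    · exact absurd (by rw [e, one_mul]) w2
    · exact absurd (by rw [e, c4]) w2
  · exact h2

/-- an involutory automorphism of a cyclic 2-group fixing an element of order four -/
theorem P2.act {g e c z x : G} (h : P2 g) (he : e * g * e⁻¹ ∈ zpowers g)
    (he2 : e * e * g = g * (e * e)) (hc : c ∈ zpowers g) (cz : c * c = z) (z2 : z * z = 1)
    (z1 : z ≠ 1) (ec : e * c = c * e) (hx : x ∈ zpowers g) :
    e * x * e⁻¹ = x ∨ e * x * e⁻¹ = x * z := by
  have h1 : e * x * e⁻¹ ∈ zpowers g := zp_trans hx (conj_zp he hx)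
  have hw : x⁻¹ * (e * x * e⁻¹) ∈ zpowers g := mul_mem (inv_mem hx) h1
  have hi : e * (x⁻¹ * (e * x * e⁻¹)) * e⁻¹ = (x⁻¹ * (e * x * e⁻¹))⁻¹ := by
    rw [show e * (x⁻¹ * (e * x * e⁻¹)) * e⁻¹ = e * x⁻¹ * e⁻¹ * (e * e * x * (e * e)⁻¹) by group,
      comm_zp he2 hx]
    group
  have w2 : x⁻¹ * (e * x * e⁻¹) * (x⁻¹ * (e * x * e⁻¹)) = 1 := by
    by_contra w2
    have := inv_zp hi (h.four_mem hw hc w2 (by rw [cz, z2]))
    rw [ec, mul_inv_cancel_right, eq_inv_iff_mul_eq_one, cz] at this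
    exact z1 this
  rcases h.uniq hw (cz ▸ mul_mem hc hc) w2 z2 z1 with e1 | e1
  · exact Or.inl (inv_mul_eq_one.1 e1).symm
  · exact Or.inr (inv_mul_eq_iff_eq_mul.1 e1)

/-- two non-squares of a cyclic group differ by a square -/
theorem nsq_mul {g x y : G} (hx : x ∈ zpowers g) (hy : y ∈ zpowers g) (nx : x ∉ zpowers (g * g))
    (ny : y ∉ zpowers (g * g)) : x * y ∈ zpowers (g * g) := by
  obtain ⟨i, rfl⟩ := hx
  obtain ⟨j, rfl⟩ := hy
  have ev : ∀ k : ℤ, Even k → g ^ k ∈ zpowers (g * g) := by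
    rintro _ ⟨k, rfl⟩
    exact ⟨k, by simp only; rw [(Commute.refl g).mul_zpow, zpow_add]⟩
  simp only at nx ny ⊢
  rw [← zpow_add]
  exact ev _ ((Int.not_even_iff_odd.1 (mt (ev i) nx)).add_odd
    (Int.not_even_iff_odd.1 (mt (ev j) ny)))

/-- The basic hypothesis: `E u` has index at most two in `C(u)` for `u` conjugate to `z`. -/
structure Hy (z : G) (E : G → Subgroup G) : Prop where
  z1 : z ≠ 1
  z2 : z * z = 1
  cm : ∀ {u x : G}, x ∈ E u → x * u = u * x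
  mul : ∀ {u x y : G}, IsConj z u → x * u = u * x → y * u = u * y → x ∉ E u → y ∉ E u →
    x * y ∈ E u
  conj : ∀ {u x : G} (g : G), x ∈ E u → g * x * g⁻¹ ∈ E (g * u * g⁻¹)
  iso : ∀ {u v : G}, IsConj z u → IsConj z v → v ∈ E u → v = u
  root : ∀ {u : G} {P : Subgroup G}, IsConj z u → IsPGroup 2 P → (∀ x ∈ P, x * u = u * x) →
    ∃ r : G, r * r = u ∧ ∀ x ∈ P, (x ∈ E u → x * r = r * x) ∧ (x ∉ E u → x * r * x⁻¹ = r⁻¹)

theorem isC_cj {z u : G} (h : IsConj z u) (g : G) : IsConj z (g * u * g⁻¹) :=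
  h.trans (isConj_iff.2 ⟨g, rfl⟩)

theorem cj_eq {g x : G} : g * x * g⁻¹ = x ↔ g * x = x * g := mul_inv_eq_iff_eq_mul

namespace Hy

variable {z : G} {E : G → Subgroup G} (h : Hy z E)
include h

theorem sq {u : G} (hu : IsConj z u) : u * u = 1 := by
  obtain ⟨g, rfl⟩ := isConj_iff.1 hu
  exact conj_mul_self h.z2 g

theorem inv {u : G} (hu : IsConj z u) : u⁻¹ = u := inv_eq_of_mul_eq_one_right (h.sq hu)

theorem zi : z⁻¹ = z := h.inv (IsConj.refl z)

theorem ne1 {u : G} (hu : IsConj z u) : u ≠ 1 := fun e =>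
  h.z1 (isConj_one_left.1 (e ▸ hu))

theorem sqE {u x : G} (hu : IsConj z u) (hx : x * u = u * x) : x * x ∈ E u := by
  by_cases e : x ∈ E u
  exacts [mul_mem e e, h.mul hu hx hx e e]

theorem conj' {u x g : G} (hg : g * u = u * g) (hx : x ∈ E u) : g * x * g⁻¹ ∈ E u := by
  simpa only [cj_eq.2 hg] using h.conj g hx

theorem commE {u x y : G} (hu : IsConj z u) (hx : x * u = u * x) (hy : y * u = u * y) :
    x * y * x⁻¹ * y⁻¹ ∈ E u := by
  by_cases e : y ∈ E u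
  · exact mul_mem (h.conj' hx e) (inv_mem e)
  · have hx' : Commute x u := hx
    have hy' : Commute y u := hy
    refine h.mul hu ((hx'.mul_left hy').mul_left hx'.inv_left) hy'.inv_left (fun c => e ?_)
      (by rwa [inv_mem_iff])
    simpa [mul_assoc] using h.conj' hx'.inv_left c

theorem self {u : G} (hu : IsConj z u) : u ∈ E u := by
  obtain ⟨r, hr, -⟩ := h.root hu (IsPGroup.of_bot (p := 2)) (by simp)
  have := h.sqE hu (x := r) (by rw [← hr, mul_assoc])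
  rwa [hr] at this

theorem root_conj {u v r : G} (hu : IsConj z u) (hv : IsConj z v) (hr : r * r = u)
    (e : v * r * v⁻¹ = r⁻¹) : r * v * r⁻¹ = v * u := by
  rw [h.inv hv] at e
  calc r * v * r⁻¹ = v * v * r * v * r⁻¹ := by rw [h.sq hv, one_mul]
    _ = v * (v * r * v) * r⁻¹ := by group
    _ = v * (r * r)⁻¹ := by rw [e]; group
    _ = v * u := by rw [hr, h.inv hu]

theorem mulz {u v : G} (hu : IsConj z u) (hv : IsConj z v) (ne : v ≠ u) (c : v * u = u * v) :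
    IsConj z (v * u) := by
  obtain ⟨r, hr, h1⟩ := h.root hu (P2.isP ⟨1, by simpa [pow_two] using h.sq hv⟩)
    fun x hx => (comm_zp c.symm hx).symm
  rw [← h.root_conj hu hv hr ((h1 v (mem_zpowers v)).2 fun e => ne (h.iso hu hv e))]
  exact isC_cj hv r

theorem nosq {t x : G} (ht : IsConj z t) (ne : t ≠ z) (hx : x * t = t * x) : x * x ≠ z :=
  fun e => ne (h.iso ht (IsConj.refl z) (e ▸ h.sqE ht hx)).symm

theorem nocomm {t x y : G} (ht : IsConj z t) (ne : t ≠ z) (hx : x * t = t * x)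
    (hy : y * t = t * y) : x * y * x⁻¹ ≠ y * z := fun e =>
  ne (h.iso ht (IsConj.refl z) (by
    have hy' : Commute y t := hy
    have := h.conj' hy'.inv_left (h.commE ht hx hy)
    rwa [e, show y⁻¹ * (y * z * y⁻¹) * y⁻¹⁻¹ = z by group] at this)).symm

theorem fix_z {k x : G} (hx : x * x = z) (c : k * x * k⁻¹ * z = z * (k * x * k⁻¹)) :
    k * z = z * k := by
  refine cj_eq.1 (h.iso (IsConj.refl z) (isC_cj (IsConj.refl z) k) ?_)
  rw [← hx, ← conj_mul, hx]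
  exact h.sqE (IsConj.refl z) c

end Hy

/-- the conjugates of `z` in `S` other than `z` -/
def D (z : G) (S : Subgroup G) (t : G) : Prop := t ∈ S ∧ IsConj z t ∧ t ≠ z

structure Hs (z : G) (E : G → Subgroup G) (S : Subgroup G) : Prop extends Hy z E where
  syl : SylIn 2 S ⊤
  cz : ∀ s ∈ S, s * z = z * s
  zS : z ∈ S

theorem Hy.exists_hs [Finite G] {z : G} {E : G → Subgroup G} (h : Hy z E) : ∃ S, Hs z E S := by
  obtain ⟨S, hS, zS⟩ := exists_sylIn (p := 2) (H := centralizer {z})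
    (P2.isP ⟨1, by simpa [pow_two] using h.z2⟩)
    (zpowers_le.2 (mem_centralizer_singleton_iff.2 rfl))
  replace zS := zpowers_le.1 zS
  have cz : ∀ s ∈ S, s * z = z * s := fun s hs => mem_centralizer_singleton_iff.1 (hS.le hs)
  obtain ⟨T, hT, ST⟩ := exists_sylIn (p := 2) hS.isP (le_top (a := S))
  have key : ∀ x : G, P2 x → x ∈ normalizer (S : Set G) → x * z = z * x → x ∈ S := fun x h1 h2 h3 => by
    have := hS.eq_of_le (R := zpowers x ⊔ S)
      (IsPGroup.to_sup_of_normal_right' h1.isP hS.isP (zpowers_le.2 h2))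
      (sup_le (zpowers_le.2 (mem_centralizer_singleton_iff.2 h3)) hS.le) le_sup_right
    exact this ▸ mem_sup_left (mem_zpowers x)
  refine ⟨S, h, ?_, cz, zS⟩
  rcases ST.eq_or_lt with e | e
  · exact e ▸ hT
  obtain ⟨x, ⟨xT, xN⟩, xS⟩ := SetLike.exists_of_lt (lt_inf_normalizer hT.isP e)
  refine absurd (key x (P2.of_mem hT.isP xT) xN (cj_eq.1 ?_)) xS
  obtain ⟨r, hr, h1⟩ := h.root (IsConj.refl z) hS.isP cz
  have rS : r ∈ S := key r ⟨2, by rw [show 2 ^ 2 = 2 + 2 from rfl, pow_add, pow_two, hr, h.z2]⟩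
    (mem_normalizer_of_conj_mem fun s hs => by
      by_cases c : s ∈ E z
      · rwa [← (h1 s hs).1 c, mul_inv_cancel_right]
      · have := (h1 s⁻¹ (inv_mem hs)).2 (by rwa [inv_mem_iff])
        rw [show r * s * r⁻¹ = s * (s⁻¹ * r * s⁻¹⁻¹) * r⁻¹ by group, this, mul_assoc,
          ← mul_inv_rev, hr]
        exact mul_mem hs (inv_mem zS)) (by rw [← hr, mul_assoc])
  refine h.iso (IsConj.refl z) (isC_cj (IsConj.refl z) x) (by_contra fun c => h.z1 ?_)
  have h2 := (h1 _ (conj_mem_of_mem_normalizer xN zS)).2 c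
  have h3 := cz _ (conj_mem_of_mem_normalizer (inv_mem xN) rS)
  have h4 : x * z * x⁻¹ * r = r * (x * z * x⁻¹) := by
    rw [show x * z * x⁻¹ * r = x * (z * (x⁻¹ * r * x⁻¹⁻¹)) * x⁻¹ by group, ← h3]; group
  rw [h4, mul_inv_cancel_right, eq_inv_iff_mul_eq_one] at h2
  exact hr ▸ h2

namespace Hs

variable {z : G} {E : G → Subgroup G} {S : Subgroup G} (h : Hs z E S)
include h

theorem p2 {x : G} (hx : x ∈ S) : P2 x := P2.of_mem h.syl.isP hx

theorem notE {t : G} (ht : D z S t) : t ∉ E z := fun e =>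
  ht.2.2 (h.iso (IsConj.refl z) ht.2.1 e)

theorem Dz {t : G} (ht : D z S t) : D z S (t * z) :=
  ⟨mul_mem ht.1 h.zS, h.mulz (IsConj.refl z) ht.2.1 ht.2.2 (h.cz t ht.1),
    fun e => h.ne1 ht.2.1 (by simpa using e)⟩

theorem Dcj {t k : G} (ht : D z S t) (kz : k * z = z * k) (hk : k * t * k⁻¹ ∈ S) :
    D z S (k * t * k⁻¹) :=
  ⟨hk, isC_cj ht.2.1 k, fun e => ht.2.2 (by
    rw [← cj_eq.2 kz] at e
    simpa using e)⟩

theorem comm3 {t t' : G} (ht : D z S t) (ht' : D z S t') (c : t' * t = t * t') :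
    t' = t ∨ t' = t * z := by
  by_cases e : t' = t
  · exact Or.inl e
  right
  have := h.iso ht.2.1 (h.Dz ht').2.1 (h.mul ht.2.1 c (h.cz t ht.1).symm
    (fun c => e (h.iso ht.2.1 ht'.2.1 c)) fun c => ht.2.2 (h.iso ht.2.1 (IsConj.refl z) c).symm)
  rw [← this, mul_assoc, h.z2, mul_one]

theorem DD {t t' : G} (ht : D z S t) (ht' : D z S t') : t * t' ∈ E z :=
  h.mul (IsConj.refl z) (h.cz t ht.1) (h.cz t' ht'.1) (h.notE ht) (h.notE ht')

theorem tinv {t t' : G} (ht : D z S t) (ht' : D z S t') : t * (t * t') * t⁻¹ = (t * t')⁻¹ := by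
  simpa using conj_mul_pow (h.sq ht.2.1) (h.sq ht'.2.1) 1

theorem dmul {t t' w : G} (ht : D z S t) (ht' : D z S t') (hw : w ∈ zpowers (t * t')) :
    D z S (t * w) := by
  have key : ∀ {s b : G}, D z S s → b ∈ zpowers (t * t') → t * w = b⁻¹ * s * b⁻¹⁻¹ →
      D z S (t * w) := fun {s b} hs hb e => by
    have bS : b ∈ S := zpowers_le.2 (mul_mem ht.1 ht'.1) hb
    exact e ▸ h.Dcj hs (h.cz _ (inv_mem bS))
      (mul_mem (mul_mem (inv_mem bS) hs.1) (inv_mem (inv_mem bS)))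
  have tb : ∀ {b : G}, b ∈ zpowers (t * t') → b⁻¹ * t = t * b := fun {b} hb => by
    rw [← inv_zp (h.tinv ht ht') hb, inv_mul_cancel_right]
  have tt : t * (t * t') = t' := by rw [← mul_assoc, h.sq ht.2.1, one_mul]
  by_cases c : w ∈ zpowers (t * t' * (t * t'))
  · obtain ⟨b, hb, e⟩ := exists_sqrt c
    exact key ht hb (by rw [tb hb, e]; group)
  · by_cases c' : (t * t')⁻¹ ∈ zpowers (t * t' * (t * t'))
    · have := (h.p2 (mul_mem ht.1 ht'.1)).eq_one (inv_mem_iff.1 c')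
      rw [this, zpowers_one_eq_bot, mem_bot] at hw
      exact absurd (hw ▸ one_mem _) c
    obtain ⟨b, hb, e⟩ := exists_sqrt (nsq_mul (inv_mem (mem_zpowers _)) hw c' c)
    refine key ht' hb ?_
    rw [inv_mul_eq_iff_eq_mul] at e
    rw [e, ← tt, ← mul_assoc b⁻¹, tb hb, tt, mul_assoc t b, ← zp_comm (mem_zpowers _) hb]
    group

theorem inv_z {t t' w : G} (ht : D z S t) (ht' : D z S t') (hw : w ∈ zpowers (t * t'))
    (w2 : w * w = 1) : w = 1 ∨ w = z := by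
  have h1 := inv_zp (h.tinv ht ht') hw
  rw [inv_eq_of_mul_eq_one_right w2, cj_eq] at h1
  simpa using h.comm3 ht (h.dmul ht ht' hw) (by rw [mul_assoc, ← h1])

theorem cent_z {t t' t'' : G} (ht : D z S t) (ht' : D z S t') (ht'' : D z S t'')
    (c : t' * t'' * t = t * (t' * t'')) : t' * t'' = 1 ∨ t' * t'' = z := by
  refine h.inv_z ht' ht'' (mem_zpowers _) (by_contra fun e => ?_)
  obtain ⟨v, hv, v2, v4⟩ := (h.p2 (mul_mem ht'.1 ht''.1)).exists_four e
  exact h.nosq ht.2.1 ht.2.2 (comm_zp c.symm hv).symm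
    ((h.inv_z ht' ht'' (mul_mem hv hv) v4).resolve_left v2)

variable [Finite G]

theorem exists_c {t : G} (ht : D z S t) : ∃ c, ∀ t', D z S t' ↔ t * t' ∈ zpowers c := by
  obtain ⟨t', ht', hm⟩ := Set.exists_max_image {x | D z S x}
    (fun x => Nat.card (zpowers (t * x))) (Set.toFinite _) ⟨t, ht⟩
  have tt : ∀ x, t * (t * x) = x := fun x => by rw [← mul_assoc, h.sq ht.2.1, one_mul]
  have gen : ∀ x, D z S x → t * t' ∈ zpowers (t * x) → t * x ∈ zpowers (t * t') := fun x hx e =>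
    (eq_of_le_of_card_ge (zpowers_le.2 e) (hm x hx)) ▸ mem_zpowers _
  have zC : z ∈ zpowers (t * t') := by
    by_cases e : t * t' = 1
    · simpa only [tt] using gen _ (h.Dz ht) (e ▸ one_mem _)
    · obtain ⟨w, hw, w1, w2⟩ := (h.p2 (mul_mem ht.1 ht'.1)).exists_inv e
      exact (h.inv_z ht ht' hw w2).resolve_left w1 ▸ hw
  refine ⟨t * t', fun x => ⟨fun hx => ?_, fun hx => tt x ▸ h.dmul ht ht' hx⟩⟩
  obtain ⟨n, hn⟩ := h.p2 (mul_mem ht.1 hx.1)
  induction n generalizing x with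
  | zero => exact (by simpa using hn : t * x = 1) ▸ one_mem _
  | succ n ih =>
    have h1 := ih _ (h.dmul ht hx sq_mem) (by rw [tt, ← pow_two, ← pow_mul, ← pow_succ', hn])
    rw [tt] at h1
    rcases (h.p2 (mul_mem ht.1 ht'.1)).sq_or_gen h1 with h2 | h2
    · obtain ⟨b, hb, e⟩ := exists_sqrt h2
      have e1 : x * (t * b) = (t * x)⁻¹ * b := by
        rw [mul_inv_rev, h.inv ht.2.1, h.inv hx.2.1, mul_assoc]
      have := h.cent_z ht hx (h.dmul ht ht' hb) (by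
        rw [eq_comm, ← cj_eq, e1, ← conj_mul, inv_zp (h.tinv ht ht') hb,
          inv_zp (h.tinv ht hx) (inv_mem (mem_zpowers _)), inv_inv,
          show t * x * b⁻¹ = (t * x)⁻¹ * (t * x * (t * x)) * b⁻¹ by group, e]
        group)
      rw [e1] at this
      rw [show t * x = b * ((t * x)⁻¹ * b)⁻¹ by group]
      rcases this with e2 | e2 <;> rw [e2]
      exacts [mul_mem hb (inv_mem (one_mem _)), mul_mem hb (inv_mem zC)]
    · exact gen x hx (zp_trans sq_mem h2)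

/-- Sylow's theorem in the normaliser of a cyclic normal subgroup of `S` -/
theorem syl_conj {x k : G} (hx : ∀ s ∈ S, s * x * s⁻¹ ∈ zpowers x) (kz : k * z = z * k) :
    ∃ m : G, m * z = z * m ∧ m * (k * x * k⁻¹) * m⁻¹ ∈ zpowers x ∧
      ∀ p ∈ S, p * (k * x * k⁻¹) * p⁻¹ ∈ zpowers (k * x * k⁻¹) → m * p * m⁻¹ ∈ S := by
  have nz : ∀ {s y : G}, s * y * s⁻¹ ∈ zpowers y → s ∈ normalizer (zpowers y : Set G) :=
    fun hs => mem_normalizer_of_conj_mem fun w hw => zp_trans hw (conj_zp hs hw)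
  have kz' : Commute k z := kz
  obtain ⟨n, ⟨n1, n2⟩, hn⟩ := (h.syl.of_le
    (K := centralizer {z} ⊓ normalizer (zpowers x : Set G))
    (fun s hs => ⟨mem_centralizer_singleton_iff.2 (h.cz s hs), nz (hx s hs)⟩) le_top).exists_conj
    (R := cj k⁻¹ (S ⊓ normalizer (zpowers (k * x * k⁻¹) : Set G)))
    (isPGroup_cj _ (h.syl.isP.to_le inf_le_left)) (cj_le_iff.2 fun p hp =>
      ⟨mem_centralizer_singleton_iff.2
        ((kz'.inv_left.mul_left (h.cz p hp.1)).mul_left kz'.inv_left.inv_left), nz (by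
        simpa [mul_assoc] using conj_zp' (k := k⁻¹)
          (conj_mem_of_mem_normalizer hp.2 (mem_zpowers _)))⟩)
  refine ⟨n * k⁻¹, (Commute.mul_left (mem_centralizer_singleton_iff.1 n1) kz'.inv_left).eq, ?_,
    fun p hp e => ?_⟩
  · simpa [mul_assoc] using conj_mem_of_mem_normalizer n2 (mem_zpowers x)
  · simpa [mul_assoc] using hn _ (conj_mem_cj (g := k⁻¹) (show p ∈ S ⊓ _ from ⟨hp, nz e⟩))

end Hs

end Cfsg.Agent.H59.Std
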