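/-
A nilpotent group generated by a commutator-closed family of subgroups acting nilpotently on
centralizers of coprime automorphisms has bounded class.
-/
import Cfsg.Agent.H59.Shalev2
import Cfsg.Agent.H45.NormFam

set_option autoImplicit false
set_option linter.unusedSectionVars false

namespace Cfsg.Agent.H59

open Subgroup Cfsg.Agent.H49 Cfsg.Agent.H45 Cfsg.Agent.H19
open scoped commutatorElement

universe u

variable {X : Type u} [Group X] {H : Subgroup X} {i j : ℕ} {x y : X}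

/-- the derived subgroup -/
def der (K : Subgroup X) : Subgroup X := ⁅K, K⁆

theorem lcs_le (H : Subgroup X) (i : ℕ) : H.lowerCentralSeries i ≤ H :=
  H.lowerCentralSeries_antitone (Nat.zero_le i)

theorem mem_gam_iff {x : H} : x ∈ gam H i ↔ (x : X) ∈ H.lowerCentralSeries i := by
  rw [← top_subtype_lowerCentralSeries]
  exact (mem_map_iff_mem H.subtype_injective).symm

open Classical in
/-- the class of an element of `γ_i(H)` in the associated Lie ring -/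
noncomputable def cl (H : Subgroup X) (i : ℕ) (x : X) : AL H :=
  if h : x ∈ H then cls i ⟨x, h⟩ else 0

theorem cl_coe (i : ℕ) (x : H) : cl H i x = cls i x := dif_pos x.2

theorem cl_mul (hx : x ∈ H.lowerCentralSeries i) (hy : y ∈ H.lowerCentralSeries i) :
    cl H i (x * y) = cl H i x + cl H i y := by
  lift x to H using lcs_le H i hx
  lift y to H using lcs_le H i hy
  rw [← coe_mul, cl_coe, cl_coe, cl_coe, cls_mul (mem_gam_iff.2 hx) (mem_gam_iff.2 hy)]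

theorem cl_inv (hx : x ∈ H.lowerCentralSeries i) : cl H i x⁻¹ = -cl H i x := by
  lift x to H using lcs_le H i hx
  rw [← coe_inv, cl_coe, cl_coe, cls_inv (mem_gam_iff.2 hx)]

theorem cl_one (i : ℕ) : cl H i 1 = 0 := by rw [← coe_one, cl_coe, cls_one]

theorem cl_eq_zero (hx : x ∈ H.lowerCentralSeries i) (h : cl H i x = 0) :
    x ∈ H.lowerCentralSeries (i + 1) := by
  lift x to H using lcs_le H i hx
  rw [cl_coe, cls_eq_zero_iff (mem_gam_iff.2 hx)] at h
  exact mem_gam_iff.1 h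

theorem comm_mem_lcs (hx : x ∈ H.lowerCentralSeries i) (hy : y ∈ H.lowerCentralSeries j) :
    ⁅x, y⁆ ∈ H.lowerCentralSeries (i + j + 1) := by
  lift x to H using lcs_le H i hx
  lift y to H using lcs_le H j hy
  exact mem_gam_iff.1 (comm_mem_gam (mem_gam_iff.2 hx) (mem_gam_iff.2 hy))

theorem lie_cl (hx : x ∈ H.lowerCentralSeries i) (hy : y ∈ H.lowerCentralSeries j) :
    ⁅cl H i x, cl H j y⁆ = cl H (i + j + 1) ⁅x, y⁆ := by
  lift x to H using lcs_le H i hx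
  lift y to H using lcs_le H j hy
  rw [cl_coe, cl_coe, AL.lie_cls (mem_gam_iff.2 hx) (mem_gam_iff.2 hy), ← cl_coe]
  rfl

/-- the elements of `γ_i(H)` whose class lies in `Z` -/
def pb (H : Subgroup X) (i : ℕ) (Z : AddSubgroup (AL H)) : Subgroup X where
  carrier := {x | x ∈ H.lowerCentralSeries i ∧ cl H i x ∈ Z}
  one_mem' := ⟨one_mem _, by rw [cl_one]; exact zero_mem _⟩
  mul_mem' ha hb := ⟨mul_mem ha.1 hb.1, by rw [cl_mul ha.1 hb.1]; exact add_mem ha.2 hb.2⟩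
  inv_mem' ha := ⟨inv_mem ha.1, by rw [cl_inv ha.1]; exact neg_mem ha.2⟩

theorem top_le_of_pb {Z : AddSubgroup (AL H)} (h : ∀ i, H.lowerCentralSeries i ≤ pb H i Z) :
    ⊤ ≤ Z := fun v _ => by
  induction v using AL.induction_on with
  | h0 => exact zero_mem _
  | h1 i x hx => rw [← cl_coe]; exact (h i (mem_gam_iff.1 hx)).2
  | h2 a b ha hb => exact add_mem (ha trivial) (hb trivial)

/-- the Lie subring of a subgroup -/
def LK (H K : Subgroup X) : AddSubgroup (AL H) :=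
  AddSubgroup.closure {v | ∃ i, ∃ x ∈ H.lowerCentralSeries i, x ∈ K ∧ cl H i x = v}

theorem cl_mem_LK {K : Subgroup X} (hx : x ∈ H.lowerCentralSeries i) (hK : x ∈ K) :
    cl H i x ∈ LK H K := AddSubgroup.subset_closure ⟨i, x, hx, hK, rfl⟩

theorem lb_LK {K K' K'' : Subgroup X} (h : ⁅K ⊓ H, K'⁆ ≤ K'') : lb (LK H K) (LK H K') ≤ LK H K'' :=
  lb_le_of_closure le_rfl le_rfl (by
    rintro _ ⟨i, x, hx, hK, rfl⟩ _ ⟨j, y, hy, hK', rfl⟩
    rw [lie_cl hx hy]
    exact cl_mem_LK (comm_mem_lcs hx hy) (h (commutator_mem_commutator ⟨hK, lcs_le H i hx⟩ hK')))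

theorem LK_bot : LK H ⊥ = ⊥ := eq_bot_iff.2 ((AddSubgroup.closure_le _).2 (by
  rintro _ ⟨i, x, -, hx, rfl⟩
  rw [Subgroup.mem_bot.1 hx, cl_one]; exact zero_mem _))

theorem lcs_le_succ {n : ℕ} (h : ac (⊤ : AddSubgroup (AL H)) n ⊤ = ⊥) :
    H.lowerCentralSeries n ≤ H.lowerCentralSeries (n + 1) := by
  have : ∀ n, H.lowerCentralSeries n ≤ pb H n (ac ⊤ n ⊤) := fun n => by
    induction n with
    | zero => exact fun x hx => ⟨hx, trivial⟩
    | succ n ih =>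
      rw [Subgroup.lowerCentralSeries_succ, commutator_le]
      intro x hx y hy
      refine ⟨commutator_mem_commutator hx hy, ?_⟩
      rw [ac_succ', ← lie_cl (j := 0) hx hy]
      exact lie_mem_lb (ih hx).2 trivial
  exact fun x hx => cl_eq_zero hx (by simpa [h] using (this n hx).2)

theorem exists_conj {a : X} (ha : a ∈ 𝒩(H)) : ∃ α : AL H →+ AL H,
    (∀ u v, α ⁅u, v⁆ = ⁅α u, α v⁆) ∧ ∀ (k i : ℕ), ∀ x ∈ H.lowerCentralSeries i,
      α^[k] (cl H i x) = cl H i (a ^ k * x * (a ^ k)⁻¹) := by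
  refine ⟨AL.map (H.normalizerMonoidHom ⟨a, ha⟩).toMonoidHom, AL.map_lie _, fun k i x hx => ?_⟩
  have hn : ∀ i, zpowers a ≤ 𝒩(H.lowerCentralSeries i) := fun i => by
    induction i with
    | zero => exact zpowers_le.2 ha
    | succ i ih => exact norm_commutator ih (zpowers_le.2 ha)
  induction k with
  | zero => simp
  | succ k ih =>
    have h1 := conj_mem_of_norm (hn i) (pow_mem (mem_zpowers a) k) hx
    rw [Function.iterate_succ_apply', ih]
    rw [show a ^ (k + 1) * x * (a ^ (k + 1))⁻¹ = a * (a ^ k * x * (a ^ k)⁻¹) * a⁻¹ by group]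
    generalize a ^ k * x * (a ^ k)⁻¹ = y at h1
    lift y to H using lcs_le H i h1
    rw [cl_coe, AL.map_cls _ (mem_gam_iff.2 h1), ← cl_coe]
    rfl

variable [Finite X]

/-- a commutator-closed generating family of invariant subgroups -/
structure WS (p c f : ℕ) (A H : Subgroup X) (S : Set (Subgroup X)) (W : X → Subgroup X) :
    Prop where
  prime : p.Prime
  elem : IsElementaryAbelian p A
  ne : A ≠ ⊥
  norm : A ≤ 𝒩(H)
  pi : IsPi {p}ᶜ H
  gen : H ≤ ⨆ K ∈ S, K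
  le : ∀ K ∈ S, K ≤ H
  inv : ∀ K ∈ S, A ≤ 𝒩(K)
  closed : ∀ K ∈ S, ∀ K' ∈ S, ∀ E ≤ A, E.relIndex A = p → ∃ K'' ∈ S, ⁅K, K'⁆ ⊓ 𝒞(E) ≤ K''
  rank : ∀ K ∈ S, ∃ B ≤ A, p ^ 2 ≤ Nat.card B ∧ ∀ b ∈ B, b ≠ 1 → K ≤ W b
  wnorm : ∀ b ∈ A, b ≠ 1 → H ⊓ 𝒞[b] ≤ 𝒩(W b)
  wnil : ∀ b ∈ A, b ≠ 1 → (W b).lowerCentralSeries c = ⊥
  sol : ∀ b ∈ A, b ≠ 1 → der^[f] (H ⊓ 𝒞[b]) = ⊥

/-- admissible pieces -/
def Adm (A H : Subgroup X) (S : Set (Subgroup X)) (i : ℕ) (Y : Subgroup X) : Prop :=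
  A ≤ 𝒩(Y) ∧ Y ≤ H.lowerCentralSeries i ∧ ∃ K ∈ S, Y ≤ K

/-- the span of the admissible pieces with a given property -/
def GP (A H : Subgroup X) (S : Set (Subgroup X)) (P : ℕ → Subgroup X → Prop) :
    AddSubgroup (AL H) :=
  AddSubgroup.closure {v | ∃ i Y, Adm A H S i Y ∧ P i Y ∧ ∃ x ∈ Y, cl H i x = v}

variable {p c f : ℕ} {A : Subgroup X} {S : Set (Subgroup X)} {W : X → Subgroup X}
  {P Q : ℕ → Subgroup X → Prop} {Y T : Subgroup X}

theorem le_pb_GP (h : Adm A H S i Y) (hP : P i Y) : Y ≤ pb H i (GP A H S P) := fun x hx =>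
  ⟨h.2.1 hx, AddSubgroup.subset_closure ⟨i, Y, h, hP, x, hx, rfl⟩⟩

theorem GP_le {Z : AddSubgroup (AL H)} (h : ∀ i Y, Adm A H S i Y → P i Y → Y ≤ pb H i Z) :
    GP A H S P ≤ Z := (AddSubgroup.closure_le _).2 (by
  rintro _ ⟨i, Y, h1, h2, x, hx, rfl⟩
  exact (h i Y h1 h2 hx).2)

/-- the bound -/
def wsB (p k c f : ℕ) : ℕ :=
  (2 ^ p ^ k * (c + 1) + 1) ^ sk ((2 ^ p ^ k * (c + 1) + 1) ^ f) (p - 1)

namespace WS

variable (h : WS p c f A H S W)
include h

theorem normL (i : ℕ) : A ≤ 𝒩(H.lowerCentralSeries i) := by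
  induction i with
  | zero => exact h.norm
  | succ i ih => exact norm_commutator ih h.norm

theorem lb_GP (hPQ : ∀ i j Y Y' Y'', Adm A H S i Y → P i Y → Adm A H S j Y' → P j Y' →
    Y'' ≤ ⁅Y, Y'⁆ → Q (i + j + 1) Y'') : lb (GP A H S P) (GP A H S P) ≤ GP A H S Q :=
  lb_le_of_closure le_rfl le_rfl (by
    rintro _ ⟨i, Y, h1, h2, x, hx, rfl⟩ _ ⟨j, Y', h3, h4, y, hy, rfl⟩
    have h5 : ⁅Y, Y'⁆ ≤ H.lowerCentralSeries (i + j + 1) :=
      commutator_le.2 fun x hx y hy => comm_mem_lcs (h1.2.1 hx) (h3.2.1 hy)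
    have h6 := norm_commutator h1.1 h3.1
    have : ⁅Y, Y'⁆ ≤ pb H (i + j + 1) (GP A H S Q) :=
      le_of_hyperplanes h.prime h.elem h.ne (h.pi.of_le (h5.trans (lcs_le H _))) h6
        fun E hE hi => by
          obtain ⟨K, hK, e⟩ := h1.2.2
          obtain ⟨K', hK', e'⟩ := h3.2.2
          obtain ⟨K'', hK'', e''⟩ := h.closed K hK K' hK' E hE hi
          exact le_pb_GP ⟨norm_inf h6 (elem_norm_cent h.elem hE), inf_le_left.trans h5, K'', hK'',
            (inf_le_inf_right _ (commutator_mono e e')).trans e''⟩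
            (hPQ i j Y Y' _ h1 h2 h3 h4 inf_le_left)
    rw [lie_cl (h1.2.1 hx) (h3.2.1 hy)]
    exact (this (commutator_mem_commutator hx hy)).2)

theorem closedT (T : Subgroup X) :
    ld (GP A H S fun _ Y => Y ≤ T) ≤ GP A H S fun _ Y => Y ≤ T :=
  h.lb_GP fun _ _ _ _ _ _ h1 _ h2 h3 => h3.trans ((commutator_mono h1 h2).trans der_le)

theorem top_le : ⊤ ≤ GP A H S fun _ Y => Y ≤ ⊤ := by
  have h0 : H ≤ pb H 0 (GP A H S fun _ Y => Y ≤ ⊤) := h.gen.trans (iSup₂_le fun K hK =>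
    le_pb_GP ⟨h.inv K hK, h.le K hK, K, hK, le_rfl⟩ le_top)
  refine top_le_of_pb fun i => ?_
  induction i with
  | zero => exact h0
  | succ i ih =>
    rw [Subgroup.lowerCentralSeries_succ, commutator_le]
    intro x hx y hy
    refine ⟨commutator_mem_commutator hx hy, ?_⟩
    rw [← lie_cl (j := 0) hx hy]
    exact h.closedT ⊤ (lie_mem_lb (ih hx).2 (h0 hy).2)

theorem ac_U {B : Subgroup X} (hB : B ≤ A) (h2 : p ^ 2 ≤ Nat.card B) :
    ac (LK H (⨅ b ∈ B, ⨅ _ : b ≠ 1, W b)) (c + 1) ⊤ = ⊥ := by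
  have h1 : (⊤ : AddSubgroup (AL H)) ≤ ⨆ b : {b // b ∈ B ∧ b ≠ 1}, LK H 𝒞[b.1] :=
    top_le_of_pb fun i => le_of_elements h.prime (elem_of_le h.elem hB) h2
      (h.pi.of_le (lcs_le H i)) (hB.trans (h.normL i)) fun b hb b1 x hx =>
        ⟨hx.1, AddSubgroup.mem_iSup_of_mem ⟨b, hb, b1⟩ (cl_mem_LK hx.1 hx.2)⟩
  refine eq_bot_iff.2 ((ac_mono _ le_rfl h1).trans (ac_iSup _ _ fun ⟨b, hb, b1⟩ => ?_))
  have h3 : (⨅ b ∈ B, ⨅ _ : b ≠ 1, W b) ≤ W b := (iInf₂_le b hb).trans (iInf_le _ b1)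
  rw [← LK_bot, ← h.wnil b (hB hb) b1]
  generalize c = n
  induction n with
  | zero => exact lb_LK ((commutator_mono (inf_comm _ _).le h3).trans
      (commutator_le_right_of_norm (h.wnorm b (hB hb) b1)))
  | succ n ih =>
    rw [ac_succ']
    exact (lb_mono ih le_rfl).trans (lb_LK (commutator_mono inf_le_left h3))

theorem ac_GP {k r : ℕ} (hk : Nat.card A = p ^ k) (T : Subgroup X)
    (hr : ld^[r] (GP A H S fun _ Y => Y ≤ T) = ⊥) :
    ac (GP A H S fun _ Y => Y ≤ T) ((2 ^ p ^ k * (c + 1) + 1) ^ r) ⊤ = ⊥ := by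
  have gen : ∀ r, ld^[r] (GP A H S fun _ Y => Y ≤ T) ≤
      GP A H S fun i Y => Y ≤ pb H i (ld^[r] (GP A H S fun _ Y => Y ≤ T)) := fun r => by
    induction r with
    | zero => exact GP_le fun i Y h1 h2 => le_pb_GP h1 (le_pb_GP h1 h2)
    | succ r ih =>
      rw [Function.iterate_succ_apply']
      refine (lb_mono ih ih).trans (h.lb_GP fun i j Y Y' Y'' h1 h2 h3 h4 h5 => h5.trans ?_)
      refine commutator_le.2 fun x hx y hy => ⟨comm_mem_lcs (h1.2.1 hx) (h3.2.1 hy), ?_⟩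
      rw [← lie_cl (h1.2.1 hx) (h3.2.1 hy)]
      exact lie_mem_lb (h2 hx).2 (h4 hy).2
  refine ac_chain (ι := {B : Subgroup X // B ≤ A ∧ p ^ 2 ≤ Nat.card B})
    (U := fun B => LK H (⨅ b ∈ B.1, ⨅ _ : b ≠ 1, W b)) ?_ (fun B => h.ac_U B.2.1 B.2.2) r
    (fun r => ld^[r] (GP A H S fun _ Y => Y ≤ T)) hr
    (fun r => (Function.iterate_succ_apply' ld _ _).ge) (fun r => ?_) fun r => ?_
  · refine (Nat.card_le_card_of_injective (β := A → Prop) (fun B a => (a : X) ∈ B.1)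
      fun B B' e => Subtype.ext (le_antisymm (fun x hx => ?_) fun x hx => ?_)).trans ?_
    · exact (congrFun e ⟨x, B.2.1 hx⟩).mp hx
    · exact (congrFun e ⟨x, B'.2.1 hx⟩).mpr hx
    · rw [Nat.card_fun, hk, Nat.card_eq_fintype_card, Fintype.card_prop]
  · induction r with
    | zero => exact h.closedT T
    | succ r ih =>
      rw [Function.iterate_succ_apply', Function.iterate_succ_apply' (n := r)] at *
      exact lb_mono ih ih
  · refine (gen r).trans (GP_le fun i Y h1 h2 x hx => ⟨h1.2.1 hx, ?_⟩)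
    obtain ⟨K, hK, e⟩ := h1.2.2
    obtain ⟨B, hB, h3, h4⟩ := h.rank K hK
    have h5 : K ≤ ⨅ b ∈ B, ⨅ _ : b ≠ 1, W b := le_iInf₂ fun b hb => le_iInf fun b1 => h4 b hb b1
    have h6 := AddSubgroup.mem_inf.2 ⟨(h2 hx).2, cl_mem_LK (h1.2.1 hx) (h5 (e hx))⟩
    exact le_iSup (fun B : {B : Subgroup X // B ≤ A ∧ p ^ 2 ≤ Nat.card B} =>
      ld^[r] (GP A H S fun _ Y => Y ≤ T) ⊓ LK H (⨅ b ∈ B.1, ⨅ _ : b ≠ 1, W b)) ⟨B, hB, h3⟩ h6

theorem lie_sol {k : ℕ} (hk : Nat.card A = p ^ k) :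
    ld^[sk ((2 ^ p ^ k * (c + 1) + 1) ^ f) (p - 1)] (⊤ : AddSubgroup (AL H)) = ⊥ := by
  haveI := Fact.mk h.prime
  obtain ⟨a, ha, a1⟩ := ne_bot_iff_exists.1 h.ne
  obtain ⟨α, h1, h2⟩ := exists_conj (h.norm ha)
  have hp : ∀ v, α^[p] v = v := fun v => by
    induction v using AL.induction_on with
    | h0 => exact iterate_map_zero _ _
    | h1 i x hx => rw [← cl_coe, h2 p i x (mem_gam_iff.1 hx), h.elem.2 a ha]; simp
    | h2 a b ha hb => rw [iterate_map_add, ha, hb]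
  refine shalev_aut α h1 hp ((isPi_compl_singleton_iff_coprime h.prime).1 h.pi) (fun v => ?_)
    (GP A H S fun _ Y => Y ≤ H ⊓ 𝒞[a]) (fun v => ?_) (h.ac_GP hk _ (eq_bot_iff.2 ?_))
  · induction v using AL.induction_on with
    | h0 => exact nsmul_zero _
    | h1 i x hx => rw [← cls_pow hx, pow_card_eq_one', cls_one]
    | h2 a b ha hb => rw [nsmul_add, ha, hb, add_zero]
  · let N : AL H →+ AL H := AddMonoidHom.mk' (fun v => ∑ k ∈ Finset.range p, α^[k] v)
      fun a b => by simp only [iterate_map_add, Finset.sum_add_distrib]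
    have hN : ∀ (k : ℕ) v, N (α^[k] v) = N v := fun k v => by
      induction k with
      | zero => rfl
      | succ k ih =>
        rw [Function.iterate_succ_apply', ← ih]
        have := (Finset.sum_range_succ (fun j => α^[j] (α^[k] v)) p).symm.trans
          (Finset.sum_range_succ' _ p)
        rw [hp] at this
        exact (add_right_cancel this).symm
    have hz : zpowers a ≤ A := zpowers_le.2 ha
    refine (h.top_le.trans (GP_le (Z := (GP A H S fun _ Y => Y ≤ H ⊓ 𝒞[a]).comap N)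
      fun i Y h3 _ => ?_)) (AddSubgroup.mem_top v)
    have hY := h3.2.1.trans (lcs_le H i)
    rw [← coprime_comm_sup_cent (hz.trans h3.1) (elem_coprime h.prime h.elem hz (h.pi.of_le hY))
      (Or.inl (elem_solvable (elem_of_le h.elem hz))), cent_zpowers]
    refine sup_le (commutator_le.2 fun x hx y hy => ?_) fun x hx => ⟨h3.2.1 hx.1, ?_⟩
    · obtain ⟨k, rfl⟩ := mem_powers_iff_mem_zpowers.2 hy
      have h4 := inv_mem (h3.2.1 hx)
      have h5 := conj_mem_of_norm (h.normL i) (hz hy) h4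
      rw [show ⁅x, a ^ k⁆ = x * (a ^ k * x⁻¹ * (a ^ k)⁻¹) by rw [commutatorElement_def]; group]
      refine ⟨mul_mem (h3.2.1 hx) h5, ?_⟩
      rw [AddSubgroup.mem_comap, cl_mul (h3.2.1 hx) h5, ← h2 k i _ h4, map_add, hN,
        cl_inv (h3.2.1 hx), map_neg, add_neg_cancel]
      exact zero_mem _
    · change ∑ k ∈ Finset.range p, α^[k] (cl H i x) ∈ GP A H S _
      refine sum_mem fun k _ => ?_
      obtain ⟨K, hK, e⟩ := h3.2.2
      rw [h2 k i x (h3.2.1 hx.1), ← ((Commute.pow_right (mem_cent1.1 hx.2) k).eq),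
        mul_inv_cancel_right]
      exact (le_pb_GP ⟨norm_inf h3.1 (elem_norm_cent1 h.elem ha), inf_le_left.trans h3.2.1, K, hK,
        inf_le_left.trans e⟩ (inf_le_inf_right _ hY) hx).2
  · rw [← LK_bot, ← h.sol a ha a1]
    generalize f = n
    induction n with
    | zero => exact GP_le fun i Y h3 h4 x hx => ⟨h3.2.1 hx, cl_mem_LK (h3.2.1 hx) (h4 hx)⟩
    | succ n ih =>
      rw [Function.iterate_succ_apply', Function.iterate_succ_apply']
      exact (lb_mono ih ih).trans (lb_LK (commutator_mono inf_le_left le_rfl))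

theorem bound {k : ℕ} (hk : Nat.card A = p ^ k) (hn : Group.IsNilpotent H) :
    H.lowerCentralSeries (wsB p k c f) = ⊥ := by
  have e : (GP A H S fun _ Y => Y ≤ ⊤) = ⊤ := top_le_iff.1 h.top_le
  have h1 := h.ac_GP hk ⊤ (e ▸ h.lie_sol hk)
  rw [e] at h1
  by_contra h0
  exact (commutator_lt_of_nilpotent hn (lcs_le H _) (H.self_le_normalizer_lowerCentralSeries _)
    h0).not_ge (lcs_le_succ h1)

end WS

end Cfsg.Agent.H59
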