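/-
Verbal subgroups of groups with a coprime elementary abelian group of automorphisms
(Acciarri–Shumyatsky).
-/
import Cfsg.Agent.H59.WordLie
import Cfsg.Agent.H59.AbCent1
import Cfsg.Agent.S0515

set_option autoImplicit false
set_option linter.unusedSectionVars false

namespace Cfsg.Agent.H59

open Subgroup Cfsg.Agent.H49 Cfsg.Agent.H45 Cfsg.Agent.H50

universe u

section
variable {X : Type u} [Group X] {p c k m n : ℕ} {A G H K : Subgroup X}

/-- `K` acts nilpotently on the centralizers of the elements of a noncyclic subgroup of `A` -/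
def GoodW (p : ℕ) (A H K : Subgroup X) : Prop :=
  K ≤ H ∧ ∃ B ≤ A, p ^ 2 ≤ Nat.card B ∧ ∀ b ∈ B, b ≠ 1 → K ≤ 𝒞[b] ∧
    ∃ W : Subgroup X, K ≤ W ∧ H ⊓ 𝒞[b] ≤ 𝒩(W) ∧ Group.IsNilpotent W

theorem der_mono' (n : ℕ) (h : H ≤ K) : der^[n] H ≤ der^[n] K :=
  Monotone.iterate (f := der) (fun _ _ h => der_mono h) n h

theorem der_le_lcs (n : ℕ) (K : Subgroup X) : der^[n] K ≤ K.lowerCentralSeries n := by
  induction n with
  | zero => exact le_rfl
  | succ n ih =>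
    rw [Function.iterate_succ_apply']
    exact commutator_mono ih (ih.trans (lcs_le K n))

theorem map_derivedSeries {Y : Type*} [Group Y] (f : Y →* X) (n : ℕ) :
    (derivedSeries Y n).map f = der^[n] f.range := by
  induction n with
  | zero => exact (MonoidHom.range_eq_map f).symm
  | succ n ih => rw [Function.iterate_succ_apply', derivedSeries_succ, map_commutator, ih]; rfl

theorem solvable_of_der (h : der^[n] K = ⊥) : Group.IsSolvable K := ⟨n, by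
  rw [← map_eq_bot_iff_of_injective _ K.subtype_injective, map_derivedSeries, range_subtype, h]⟩

/-- the family of the fixed subgroups of hyperplanes -/
def F0 (p : ℕ) (A G : Subgroup X) : Set (Subgroup X) :=
  {S | ∃ E ≤ A, E.relIndex A = p ∧ S = G ⊓ 𝒞(E)}

/-- the product of two families -/
def FM (p : ℕ) (A : Subgroup X) (U V : Set (Subgroup X)) : Set (Subgroup X) :=
  {S | ∃ K ∈ U, ∃ K' ∈ V, ∃ E ≤ A, E.relIndex A = p ∧ S = ⁅K, K'⁆ ⊓ 𝒞(E)}

/-- refinement of families -/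
def Ref (U V : Set (Subgroup X)) : Prop := ∀ K ∈ U, ∃ K' ∈ V, K ≤ K'

variable {U V U' V' : Set (Subgroup X)} {u v : Subgroup X → Subgroup X}

theorem Ref.refl (U : Set (Subgroup X)) : Ref U U := fun K h => ⟨K, h, le_rfl⟩

theorem Ref.trans (h : Ref U V) (h' : Ref V V') : Ref U V' := fun K hK => by
  obtain ⟨K', h1, h2⟩ := h K hK
  obtain ⟨K'', h3, h4⟩ := h' K' h1
  exact ⟨K'', h3, h2.trans h4⟩

theorem Ref.mul (h : Ref U U') (h' : Ref V V') : Ref (FM p A U V) (FM p A U' V') := by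
  rintro _ ⟨K, hK, K', hK', E, hE, hi, rfl⟩
  obtain ⟨L, h1, h2⟩ := h K hK
  obtain ⟨L', h3, h4⟩ := h' K' hK'
  exact ⟨_, ⟨L, h1, L', h3, E, hE, hi, rfl⟩, inf_le_inf_right _ (commutator_mono h2 h4)⟩

theorem ref_F0 : Ref (FM p A (F0 p A G) (F0 p A G)) (F0 p A G) := by
  rintro _ ⟨_, ⟨E₁, -, -, rfl⟩, _, ⟨E₂, -, -, rfl⟩, E, hE, hi, rfl⟩
  exact ⟨_, ⟨E, hE, hi, rfl⟩,
    inf_le_inf_right _ ((commutator_mono inf_le_left inf_le_left).trans der_le)⟩

/-- a family of special subgroups for the verbal operator `w` of weight `n` -/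
structure Fam (p : ℕ) (A G : Subgroup X) (U : Set (Subgroup X)) (w : Subgroup X → Subgroup X)
    (n : ℕ) : Prop where
  inv : ∀ K ∈ U, A ≤ 𝒩(K)
  gen : w G ≤ ⨆ K ∈ U, K
  rank : ∀ K ∈ U, ∃ B ≤ A, B.relIndex A ≤ p ^ n ∧ K ≤ w (G ⊓ 𝒞(B))
  mono : Monotone w
  wle : ∀ K, w K ≤ K
  wnorm : ∀ K, 𝒩(K) ≤ 𝒩(w K)

theorem Fam.le {w : Subgroup X → Subgroup X} (h : Fam p A G U w n) (hK : K ∈ U) : K ≤ w G := by
  obtain ⟨B, -, -, e⟩ := h.rank K hK
  exact e.trans (h.mono inf_le_left)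

variable [Finite X]

theorem fam_zero (hp : p.Prime) (hA : IsElementaryAbelian p A) (h0 : A ≠ ⊥) (hG : IsPi {p}ᶜ G)
    (hn : A ≤ 𝒩(G)) : Fam p A G (F0 p A G) id 1 where
  inv := by rintro _ ⟨E, hE, -, rfl⟩; exact norm_inf hn (elem_norm_cent hA hE)
  gen := le_of_hyperplanes hp hA h0 hG hn fun E hE hi => le_iSup₂_of_le _ ⟨E, hE, hi, rfl⟩ le_rfl
  rank := by rintro _ ⟨E, hE, hi, rfl⟩; exact ⟨E, hE, by rw [hi, pow_one], le_rfl⟩
  mono := monotone_id
  wle _ := le_rfl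
  wnorm _ := le_rfl

theorem Fam.mul (hp : p.Prime) (hA : IsElementaryAbelian p A) (h0 : A ≠ ⊥) (hG : IsPi {p}ᶜ G)
    (hU : Fam p A G U u m) (hV : Fam p A G V v n) (h1 : Ref (FM p A U V) U)
    (h2 : Ref (FM p A U V) V) : Fam p A G (FM p A U V) (fun K => ⁅u K, v K⁆) (m + n) where
  inv := by
    rintro _ ⟨K, hK, K', hK', E, hE, -, rfl⟩
    exact norm_inf (norm_commutator (hU.inv K hK) (hV.inv K' hK')) (elem_norm_cent hA hE)
  gen := by
    set N := ⨆ K ∈ FM p A U V, K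
    have a1 : ∀ K ∈ U, ∀ K' ∈ V, ⁅K, K'⁆ ≤ N := fun K hK K' hK' =>
      le_of_hyperplanes hp hA h0 (hG.of_le ((commutator_mono ((hU.le hK).trans (hU.wle G))
        ((hV.le hK').trans (hV.wle G))).trans der_le))
        (norm_commutator (hU.inv K hK) (hV.inv K' hK')) fun E hE hi =>
          le_iSup₂_of_le _ ⟨K, hK, K', hK', E, hE, hi, rfl⟩ le_rfl
    have a2 : ∀ K : Subgroup X, (∀ S ∈ FM p A U V, ⁅S, K⁆ ≤ N) → K ≤ 𝒩(N) := fun K hK =>
      le_norm_of_cj fun x hx => mem_norm_iff_cj.1 (mem_norm_of_cj_le (cj_le_iff.2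
        (iSup₂_le fun S hS y hy => by
          rw [mem_cj, inv_inv, show x * y * x⁻¹ = y * (y⁻¹ * x * y⁻¹⁻¹ * x⁻¹) by group]
          exact mul_mem (le_iSup₂_of_le (f := fun K (_ : K ∈ FM p A U V) => K) S hS le_rfl hy)
            (hK S hS (commutator_mem_commutator (inv_mem hy) hx)))))
    have a3 : ⨆ K ∈ U, K ≤ 𝒩(N) := iSup₂_le fun K hK => a2 K fun S hS => by
      obtain ⟨K', h3, h4⟩ := h2 S hS
      rw [commutator_comm]
      exact (commutator_mono le_rfl h4).trans (a1 K hK K' h3)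
    have a4 : ⨆ K ∈ V, K ≤ 𝒩(N) := iSup₂_le fun K hK => a2 K fun S hS => by
      obtain ⟨K', h3, h4⟩ := h1 S hS
      exact (commutator_mono h4 le_rfl).trans (a1 K' h3 K hK)
    refine (commutator_mono hU.gen hV.gen).trans ((quo_cent_iff a3 a4).1 ((quo_le_iff a3).2
      (iSup₂_le fun K hK => ?_)))
    have a5 : K ≤ 𝒩(N) := (le_iSup₂_of_le K hK le_rfl).trans a3
    refine (quo_le_iff a5).1 (cent_symm ((quo_le_iff a4).2 (iSup₂_le fun K' hK' => ?_)))
    have a6 : K' ≤ 𝒩(N) := (le_iSup₂_of_le K' hK' le_rfl).trans a4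
    exact (quo_le_iff a6).1 (cent_symm ((quo_cent_iff a5 a6).2 (a1 K hK K' hK')))
  rank := by
    rintro _ ⟨K, hK, K', hK', E, -, -, rfl⟩
    obtain ⟨B, a1, a2, a3⟩ := hU.rank K hK
    obtain ⟨B', a4, a5, a6⟩ := hV.rank K' hK'
    refine ⟨B ⊓ B', inf_le_left.trans a1, relIndex_inf_le.trans ?_, inf_le_left.trans
      (commutator_mono (a3.trans (hU.mono (inf_le_inf_left _ (cent_anti inf_le_left))))
        (a6.trans (hV.mono (inf_le_inf_left _ (cent_anti inf_le_right)))))⟩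
    rw [pow_add]; exact Nat.mul_le_mul a2 a5
  mono _ _ h := commutator_mono (hU.mono h) (hV.mono h)
  wle K := (commutator_mono (hU.wle K) (hV.wle K)).trans der_le
  wnorm K := norm_commutator (hU.wnorm K) (hV.wnorm K)

theorem GoodW.cent {V : Subgroup X} (hp : p.Prime) (hA : IsElementaryAbelian p A)
    (hH : IsPi {p}ᶜ H) (hs : Group.IsSolvable H) (hn : A ≤ 𝒩(H)) (hV : V ≤ H)
    (hc : IsChief (H ⊔ A) ⊥ V) (hq : Group.IsNilpotent (quo H V)) (h : GoodW p A H K) :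
    K ≤ 𝒞(V) := by
  obtain ⟨r, hr, -, -, n, hcard⟩ := BG.chief_elem_of_solvable (H49.solvable_of_le hs hV) hc
  rw [relIndex_bot_left] at hcard
  have hVr : IsPi {r} V := isPi_of_card_eq_pow hr hcard
  have hHV : H ≤ 𝒩(V) := le_sup_left.trans hc.2.2.2.1
  have hAV : A ≤ 𝒩(V) := le_sup_right.trans hc.2.2.2.1
  obtain ⟨hK, B, hB, h2, h3⟩ := h
  obtain ⟨b, hb, b1⟩ := ne_bot_iff_exists.1 (ne_bot_of_pow_le hp h2)
  obtain ⟨-, W, h4, -, h5⟩ := h3 b hb b1
  rw [← (nilpotent_isDp (nilpotent_of_le h5 h4) {r}).1]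
  refine sup_le ?_ (cent_symm (le_of_elements hp (H45.elem_of_le hA hB) h2 (hH.of_le hV)
    (hB.trans hAV) fun b hb b1 => cent_symm ?_))
  · have e1 : piCoreOf {r} K ≤ piCoreOf {r} H := by
      rw [← quoPre_piCoreOf hVr hV hHV, ← quo_le_iff ((piCoreOf_le _ _).trans (hK.trans hHV))]
      exact nilpotent_le_piCoreOf hq (quo_mono _ ((piCoreOf_le _ _).trans hK))
        ((piCoreOf_pi _ _).quo V)
    refine e1.trans (cent_symm (le_trans (Eq.ge ((hc.2.2.2.2 (V ⊓ 𝒞(piCoreOf {r} H)) bot_le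
      inf_le_left ?_).resolve_left ?_)) inf_le_right))
    · exact norm_inf hc.2.2.2.1 (norm_cent (norm_piCoreOf _ (sup_le le_normalizer hn)))
    · exact inf_center_ne_bot_of_nilpotent (piCoreOf_pi _ H).nilpotent (le_piCoreOf hV hHV hVr)
        ((piCoreOf_le _ _).trans hHV) hc.1.ne'
  · obtain ⟨h6, W, h7, h8, h9⟩ := h3 b hb b1
    have e1 := piCoreOf_le {r}ᶜ K
    have e2 : piCoreOf {r}ᶜ K ≤ 𝒩(V ⊓ 𝒞[b]) :=
      e1.trans (norm_inf (hK.trans hHV) (h6.trans le_normalizer))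
    refine coprime_cent_of_stable e2 ((piCoreOf_pi _ _).coprime' (hVr.inf_left _))
      (Or.inr (H49.solvable_of_le hs (inf_le_left.trans hV))) (nilpotent_cent (π := {r}) h9 ?_
        (e1.trans h7) ((hVr.inf_left _).of_le (commutator_le_left_of_norm e2)) (piCoreOf_pi _ _))
    exact (commutator_mono le_rfl (e1.trans h7)).trans
      (commutator_le_right_of_norm ((inf_le_inf_right _ hV).trans h8))

end

theorem nil_of_good (p n : ℕ) (hp : p.Prime) : ∀ (X : Type u) [Group X] [Finite X]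
    (A H : Subgroup X), Nat.card H = n → IsElementaryAbelian p A → IsPi {p}ᶜ H →
    Group.IsSolvable H → A ≤ 𝒩(H) → H ≤ ⨆ K, ⨆ _ : GoodW p A H K, K → Group.IsNilpotent H := by
  induction n using Nat.strong_induction_on with
  | _ n ih =>
  intro X _ _ A H hn hA hH hs hAH hg
  by_cases h0 : H = ⊥
  · subst h0; infer_instance
  obtain ⟨V, ⟨hV0, hVH, hnV⟩, hmin⟩ := exists_minimal_of_wellFoundedLT
    (fun N : Subgroup X => ⊥ < N ∧ N ≤ H ∧ H ⊔ A ≤ 𝒩(N))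
    ⟨H, bot_lt_iff_ne_bot.2 h0, le_rfl, sup_le le_normalizer hAH⟩
  have hch : IsChief (H ⊔ A) ⊥ V := ⟨hV0, hVH.trans le_sup_left, le_norm_bot _, hnV,
    fun W h1 h2 h3 => (h1.eq_or_lt).imp Eq.symm fun h4 =>
      le_antisymm h2 (hmin ⟨h4, h2.trans hVH, h3⟩ h2)⟩
  have hHV : H ≤ 𝒩(V) := le_sup_left.trans hnV
  have hAV : A ≤ 𝒩(V) := le_sup_right.trans hnV
  have hq : Group.IsNilpotent (quo H V) := by
    refine ih _ (hn ▸ card_quo_lt hHV (by rw [inf_eq_left.2 hVH]; exact hV0.ne')) _ (quo A V) _ rfl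
      ⟨abelian_quo hA.1 V, fun y hy => ?_⟩ (hH.quo V) (solvable_quo hs V) (quo_norm V hAH)
      ((quo_le_iff hHV).2 (hg.trans (iSup₂_le fun K ⟨hK, B, hB, h2, h3⟩ =>
        (quo_le_iff (hK.trans hHV)).1 (le_iSup₂_of_le (quo K V) ⟨quo_mono V hK, quo B V,
          quo_mono V hB, ?_, fun y hy y1 => ?_⟩ le_rfl))))
    · obtain ⟨x, hx, rfl⟩ := mem_quo.1 hy
      rw [← map_pow, show x ^ p = 1 from Subtype.ext (hA.2 _ hx), map_one]
    · rwa [card_quo_of_disjoint (hB.trans hAV)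
        (((elem_pi hp hA).of_le hB).inf_eq_bot (hH.of_le hVH))]
    · obtain ⟨x, hx, rfl⟩ := mem_quo.1 hy
      obtain ⟨h4, W, h5, h6, h7⟩ := h3 x hx fun e => y1 (by rw [coset_eq_one_iff, e]; exact one_mem _)
      have hz : zpowers (x : X) ≤ A := zpowers_le.2 (hB hx)
      rw [← cent_zpowers] at h4 h6
      rw [← cent_zpowers, ← quo_zpowers, ← coprime_quo_cent (hz.trans hAH) (hz.trans hAV)
        (elem_coprime hp hA hz (hH.of_le hVH)) (Or.inr (H49.solvable_of_le hs hVH))]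
      exact ⟨quo_cent V h4, quo W V, quo_mono V h5, quo_norm V h6, nilpotent_quo h7 V⟩
  exact nilpotent_of_quo_cent hHV
    (hg.trans (iSup₂_le fun K hK => hK.cent hp hA hH hs hAH hVH hch hq)) hq

theorem word_bound {X : Type u} [Group X] [Finite X] {p c k g n : ℕ} {A G : Subgroup X}
    {S : Set (Subgroup X)} {w : Subgroup X → Subgroup X} (hp : p.Prime)
    (hA : IsElementaryAbelian p A) (hk : Nat.card A = p ^ k) (h3 : 3 ≤ k) (hn : n + 2 ≤ k)
    (hG : IsPi {p}ᶜ G) (hAG : A ≤ 𝒩(G)) (hS : Fam p A G S w n) (hc : Ref (FM p A S S) S)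
    (hg : ∀ K, der^[g] K ≤ w K)
    (h : ∀ a ∈ A, a ≠ 1 → (w (G ⊓ 𝒞[a])).lowerCentralSeries c = ⊥) :
    (w G).lowerCentralSeries (wsB p k c (c + g)) = ⊥ := by
  haveI := Fact.mk hp
  have h1 : ∀ a ∈ A, a ≠ 1 → der^[c + g] (G ⊓ 𝒞[a]) = ⊥ := fun a ha a1 => by
    rw [eq_bot_iff, ← h a ha a1, Function.iterate_add_apply]
    exact (der_mono' c (hg _)).trans (der_le_lcs c _)
  have h3' : p ^ 3 ≤ Nat.card A := hk ▸ Nat.pow_le_pow_right hp.pos h3
  have hs := S0515.result p A G hA.1 hA.2 h3' ((isPi_compl_singleton_iff_coprime hp).1 hG) hAG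
    fun a ha a1 => solvable_of_der (h1 a ha a1)
  have rk : ∀ K ∈ S, ∃ B ≤ A, p ^ 2 ≤ Nat.card B ∧ ∀ b ∈ B, b ≠ 1 → K ≤ w (G ⊓ 𝒞[b]) :=
    fun K hK => by
      obtain ⟨B, h1, h2, h4⟩ := hS.rank K hK
      refine ⟨B, h1, Nat.le_of_mul_le_mul_right ?_ (pow_pos hp.pos n), fun b hb _ =>
        h4.trans (hS.mono (inf_le_inf_left _ (cent_le_cent1 hb)))⟩
      rw [← pow_add]
      refine (Nat.pow_le_pow_right hp.pos (by omega : 2 + n ≤ k)).trans ?_
      rw [← hk, ← card_mul_relIndex h1]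
      exact Nat.mul_le_mul_left _ h2
  have wn : ∀ b, w G ⊓ 𝒞[b] ≤ 𝒩(w (G ⊓ 𝒞[b])) := fun b =>
    (inf_le_inf_right _ (hS.wle G)).trans (le_normalizer.trans (hS.wnorm _))
  have hW : WS p c (c + g) A (w G) S fun b => w (G ⊓ 𝒞[b]) :=
    ⟨hp, hA, ne_bot_of_pow_le hp h3', hAG.trans (hS.wnorm G), hG.of_le (hS.wle G), hS.gen,
      fun K hK => hS.le hK, hS.inv, fun K hK K' hK' E hE hi => hc _ ⟨K, hK, K', hK', E, hE, hi, rfl⟩,
      rk, fun b _ _ => wn b, h, fun b hb b1 =>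
        eq_bot_iff.2 (h1 b hb b1 ▸ der_mono' _ (inf_le_inf_right _ (hS.wle G)))⟩
  refine hW.bound hk (nil_of_good p _ hp X A _ rfl hA hW.pi (H49.solvable_of_le hs (hS.wle G))
    hW.norm (hS.gen.trans (iSup₂_le fun K hK => le_iSup₂_of_le K ⟨hS.le hK, ?_⟩ le_rfl)))
  obtain ⟨B, h1, h2, h4⟩ := rk K hK
  exact ⟨B, h1, h2, fun b hb b1 => ⟨(h4 b hb b1).trans ((hS.wle _).trans inf_le_right), _,
    h4 b hb b1, wn b, isNilpotent_of_lowerCentralSeries_eq_bot (h b (h1 hb) b1)⟩⟩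

/-- passage to the holomorph -/
theorem exists_hol (G : Type u) [Group G] [Finite G] : ∃ (X : Type u) (_ : Group X) (_ : Finite X)
    (i : G →* X) (j : MulAut G →* X), Function.Injective i ∧ Function.Injective j ∧
      j.range ≤ 𝒩(i.range) ∧ ∀ a : MulAut G, i.range ⊓ 𝒞[j a] =
        (i.comp (a.toMonoidHom.eqLocus (MonoidHom.id G)).subtype).range := by
  let Γ := G ⋊[MonoidHom.id _] MulAut G
  let i : G →* Γ := SemidirectProduct.inl
  let j : MulAut G →* Γ := SemidirectProduct.inr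
  have hi : Function.Injective i := SemidirectProduct.inl_injective
  have conj : ∀ (a : MulAut G) (x : G), j a * i x * (j a)⁻¹ = i (a x) := fun a x => by
    rw [← map_inv]; exact (SemidirectProduct.inl_aut a x).symm
  refine ⟨Γ, inferInstance, Finite.of_equiv _ SemidirectProduct.equivProd.symm, i, j, hi,
    SemidirectProduct.inr_injective,
    le_norm_iff.2 (by rintro _ ⟨a, rfl⟩ _ ⟨x, rfl⟩; exact ⟨_, (conj _ x).symm⟩), fun a => ?_⟩
  ext y
  constructor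
  · rintro ⟨⟨x, rfl⟩, hx⟩
    refine ⟨⟨x, hi ((conj a x).symm.trans ?_)⟩, rfl⟩
    rw [mul_inv_eq_iff_eq_mul]; exact (mem_cent1.1 hx).symm
  · rintro ⟨⟨x, hx⟩, rfl⟩
    refine ⟨⟨x, rfl⟩, mem_cent1.2 (mul_inv_eq_iff_eq_mul.1 ((conj a x).trans ?_)).symm⟩
    exact congrArg i hx

end Cfsg.Agent.H59
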